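import Mathlib
import Cfsg.Agent.Lib.Helper18.ReeHallStmt

/-!
# Solvable subgroups of the small Ree groups (statement file for S2361, helper7)

Built on helper42's `ReeSpStmt` (`Ax`, `SylNC`, `EvenC`) and helper18's `ReeHallStmt`
(`NormP`, `ConjP`).  `q = qq m = 3^(2m+1)`, `r = rr m = 3^(m+1)`.

Proof.  Let `L` be solvable.
* If some odd prime `p` has a nontrivial normal `p`-subgroup `M` of `L`:
  `p = 3`: `M` lies in a Sylow 3-subgroup `P` and `N(M) ≤ N(P)` (TI) [`Three3`];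
  `p > 3`: `M` is cyclic, `|M| = p^k` divides one of the four cyclic orders [`Arith`], and
  `N(M) ≤ N(A)` for a conjugate `A` of the corresponding cyclic subgroup [`NConj`].
* Otherwise `L` has a normal 2-subgroup `F` with `C_L(F) ≤ F` [`Fit2`, `FitG`]; `|F| ∣ 8`.
  `|F| ≤ 2`: `L = F` [`TwoSmall`]; `|F| = 8`: `F` is Sylow; `|F| = 4`: the number of Sylow
  2-subgroups containing `F` is prime to 3 [`Omega`] and `L` acts on them through a 3-group
  [`TwoFour`], so `L` normalizes one of them.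
-/

set_option autoImplicit false

namespace Cfsg.Agent.Lib.Helper7.ReeSolvStmt

open Cfsg.Agent.Lib.Helper42.ReeSpStmt Cfsg.Agent.Lib.Helper18.ReeHallStmt

universe u v

/-- the four cyclic orders -/
def IsTorOrd (m n : ℕ) : Prop :=
  n = (qq m - 1) / 2 ∨ n = (qq m + 1) / 4 ∨ n = qq m - rr m + 1 ∨ n = qq m + rr m + 1

/-- the conclusion of S2361 for an abstract group -/
def SolvC (G : Type u) [Group G] (m : ℕ) : Prop :=
  ∀ L : Subgroup G, Group.IsSolvable ↥L →
    ∃ A : Subgroup G, L ≤ Subgroup.normalizer (A : Set G) ∧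
      ((∃ P : Sylow 2 G, A = P) ∨ (∃ P : Sylow 3 G, A = P) ∨
        (IsCyclic ↥A ∧ IsTorOrd m (Nat.card ↥A)))

/-! ## the odd primes -/

/-- ARITH (pure arithmetic): a power of a prime `p > 3` dividing `q³(q-1)(q³+1)` divides one of
`(q-1)/2`, `(q+1)/4`, `q-r+1`, `q+r+1`. -/
def Arith : Prop :=
  ∀ (m p k : ℕ), p.Prime → 3 < p → p ^ k ∣ qq m ^ 3 * (qq m - 1) * (qq m ^ 3 + 1) →
    p ^ k ∣ (qq m - 1) / 2 ∨ p ^ k ∣ (qq m + 1) / 4 ∨ p ^ k ∣ qq m - rr m + 1 ∨
      p ^ k ∣ qq m + rr m + 1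

/-- NCONJ (pure group theory): if `NormP G a b` and cyclic subgroups of order `d ∣ a`, `d > 1`,
are conjugate, then every cyclic `M` of order `d` has `N(M) ≤ N(A)` for some cyclic `A` of
order `a`. -/
def NConj : Prop :=
  ∀ (G : Type u) [Group G] [Finite G] (a b d : ℕ), NormP G a b → d ∣ a → 1 < d → ConjP G d →
    ∀ M : Subgroup G, IsCyclic ↥M → Nat.card ↥M = d →
      ∃ A : Subgroup G, IsCyclic ↥A ∧ Nat.card ↥A = a ∧
        Subgroup.normalizer (M : Set G) ≤ Subgroup.normalizer (A : Set G)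

/-- normalizers of nontrivial `p`-subgroups, `p > 3` -/
def OddC (G : Type u) [Group G] (m : ℕ) : Prop :=
  ∀ (p : ℕ), p.Prime → 3 < p → ∀ M : Subgroup G, M ≠ ⊥ → IsPGroup p ↥M →
    ∃ A : Subgroup G, IsCyclic ↥A ∧ IsTorOrd m (Nat.card ↥A) ∧
      Subgroup.normalizer (M : Set G) ≤ Subgroup.normalizer (A : Set G)

/-- normalizers of nontrivial 3-subgroups -/
def Three3C (G : Type u) [Group G] : Prop :=
  ∀ M : Subgroup G, M ≠ ⊥ → IsPGroup 3 ↥M →
    ∃ P : Sylow 3 G,
      Subgroup.normalizer (M : Set G) ≤ Subgroup.normalizer ((P : Subgroup G) : Set G)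

/-- THREE3: a nontrivial 3-subgroup `M` lies in a Sylow 3-subgroup `P` (a conjugate of `U`), and
`N(M) ≤ N(P)` by the TI property. -/
def Three3 : Prop :=
  ∀ (G : Type u) [Group G] [Finite G] (U H A : Subgroup G) (K : Type v) [Field K] [Fintype K]
    (m : ℕ), Ax G U H A K m → Three3C G

/-! ## the prime 2 -/

/-- 2-elements are involutions -/
def Exp2C (G : Type u) [Group G] : Prop :=
  ∀ x : G, (∃ k : ℕ, x ^ 2 ^ k = 1) → x ^ 2 = 1

/-- EXP2: from `EvenC` (even orders divide `6`, `q-1` or `(q+1)/2`, none divisible by 4). -/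
def Exp2 : Prop :=
  ∀ (G : Type u) [Group G] [Finite G] (m : ℕ), EvenC G m → Exp2C G

/-- Sylow 2-subgroups have order 8 -/
def Syl2C (G : Type u) [Group G] : Prop :=
  ∀ P : Sylow 2 G, Nat.card ↥(P : Subgroup G) = 8

/-- SYL2: the 2-part of `q³(q-1)(q³+1)` is 8. -/
def Syl2 : Prop :=
  ∀ (G : Type u) [Group G] [Finite G] (U H A : Subgroup G) (K : Type v) [Field K] [Fintype K]
    (m : ℕ), Ax G U H A K m → Syl2C G

/-- no element of order 3 centralizes a subgroup of order 4 -/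
def C3FC (G : Type u) [Group G] : Prop :=
  ∀ F : Subgroup G, Nat.card ↥F = 4 → ∀ y ∈ Subgroup.centralizer (F : Set G), y ^ 3 = 1 → y = 1

/-- C3F: a conjugate of `y` lies in `U`, its centralizer lies in `N(U)` (TI), of order
`q³(q-1)`, not divisible by 4. -/
def C3F : Prop :=
  ∀ (G : Type u) [Group G] [Finite G] (U H A : Subgroup G) (K : Type v) [Field K] [Fintype K]
    (m : ℕ), Ax G U H A K m → SylNC G U H m → C3FC G

/-- FIT2 (pure): a finite solvable group without nontrivial normal `p`-subgroups for odd `p`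
has a normal 2-subgroup containing its centralizer (its Fitting subgroup; S0009, S0044). -/
def Fit2 : Prop :=
  ∀ (L : Type u) [Group L] [Finite L], Group.IsSolvable L →
    (∀ p : ℕ, p.Prime → p ≠ 2 → ∀ M : Subgroup L, M.Normal → IsPGroup p ↥M → M = ⊥) →
    ∃ F : Subgroup L, F.Normal ∧ IsPGroup 2 ↥F ∧ Subgroup.centralizer (F : Set L) ≤ F

/-- FITG (pure): `Fit2` for a subgroup `L` of `G`, in terms of subgroups of `G`. -/
def FitG : Prop :=
  ∀ (G : Type u) [Group G] [Finite G] (L : Subgroup G), Group.IsSolvable ↥L →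
    (∀ p : ℕ, p.Prime → p ≠ 2 → ∀ M : Subgroup G, M ≤ L →
      L ≤ Subgroup.normalizer (M : Set G) → IsPGroup p ↥M → M = ⊥) →
    ∃ F : Subgroup G, F ≤ L ∧ L ≤ Subgroup.normalizer (F : Set G) ∧ IsPGroup 2 ↥F ∧
      ∀ x ∈ L, (∀ f ∈ F, x * f = f * x) → x ∈ F

/-- TWOSMALL (pure): a normal subgroup of order `≤ 2` containing its centralizer is everything. -/
def TwoSmall : Prop :=
  ∀ (G : Type u) [Group G] [Finite G] (L F : Subgroup G), F ≤ L →
    L ≤ Subgroup.normalizer (F : Set G) → Nat.card ↥F ≤ 2 →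
    (∀ x ∈ L, (∀ f ∈ F, x * f = f * x) → x ∈ F) → L = F

/-- OMEGA (pure): the number of Sylow 2-subgroups containing a subgroup `F` of order 4 is prime
to 3 (they are abelian, hence the Sylow 2-subgroups of `C(F)`, conjugate under `C(F)`, whose
order is prime to 3). -/
def Omega : Prop :=
  ∀ (G : Type u) [Group G] [Finite G], Exp2C G → C3FC G → ∀ F : Subgroup G, Nat.card ↥F = 4 →
    ¬ 3 ∣ Nat.card {P : Sylow 2 G // F ≤ (P : Subgroup G)}

/-- TWOFOUR (pure): `F` of order 4 normal in `L` with `C_L(F) ≤ F`: `x³ ∈ F` for all `x ∈ L`,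
so `L` acts on the Sylow 2-subgroups containing `F` through a 3-group and fixes one. -/
def TwoFour : Prop :=
  ∀ (G : Type u) [Group G] [Finite G], Exp2C G →
    ∀ L F : Subgroup G, F ≤ L → L ≤ Subgroup.normalizer (F : Set G) → Nat.card ↥F = 4 →
      (∀ x ∈ L, (∀ f ∈ F, x * f = f * x) → x ∈ F) →
      ¬ 3 ∣ Nat.card {P : Sylow 2 G // F ≤ (P : Subgroup G)} →
      ∃ P : Sylow 2 G, L ≤ Subgroup.normalizer ((P : Subgroup G) : Set G)

/-- solvable subgroups without nontrivial normal `p`-subgroups for odd `p` -/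
def TwoC (G : Type u) [Group G] : Prop :=
  ∀ L : Subgroup G, Group.IsSolvable ↥L →
    (∀ p : ℕ, p.Prime → p ≠ 2 → ∀ M : Subgroup G, M ≤ L →
      L ≤ Subgroup.normalizer (M : Set G) → IsPGroup p ↥M → M = ⊥) →
    ∃ P : Sylow 2 G, L ≤ Subgroup.normalizer ((P : Subgroup G) : Set G)

end Cfsg.Agent.Lib.Helper7.ReeSolvStmt
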