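import Mathlib
import Cfsg.Agent.Lib.Helper32.D8Stmt

set_option autoImplicit false

/-!
# S3716: generic engine for the local pair sums `LOC**` (helper7)

Index type `I = Fin 3 × Fin 3 × Fin 2 × Fin 2 × Fin 2` of the normal forms
`x^i y^j a^k b^l w^m` of `N`; `e p` the element with index `p`; `mulI` the product rule;
`clI c` the `N`-class of `e c` on indices.  Main result `loc_of_counts`: a local pair sum
`LocP N x f g (e c) (e d) v₁ v₂` follows from four decidable integer identities.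
-/

namespace Cfsg.Agent.Lib.Helper7.D8Loc

open Cfsg
open Cfsg.Agent.Lib.Helper32.D8Stmt

universe u

/-- index type of the normal forms -/
abbrev I : Type := Fin 3 × Fin 3 × Fin 2 × Fin 2 × Fin 2

/-- the product rule on indices -/
def mulI (p q : I) : I :=
  if p.2.2.2.2 = 0 then
    (p.1 + (if p.2.2.1 = 0 then q.1 else 2 * q.1),
     p.2.1 + (if p.2.2.2.1 = 0 then q.2.1 else 2 * q.2.1),
     p.2.2.1 + q.2.2.1, p.2.2.2.1 + q.2.2.2.1, p.2.2.2.2 + q.2.2.2.2)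
  else
    (p.1 + (if p.2.2.1 = 0 then q.2.1 else 2 * q.2.1),
     p.2.1 + (if p.2.2.2.1 = 0 then q.1 else 2 * q.1),
     p.2.2.1 + q.2.2.2.1, p.2.2.2.1 + q.2.2.1, p.2.2.2.2 + q.2.2.2.2)

/-- the class of `c` on indices -/
def clI (c : I) : Finset I := Finset.univ.filter (fun r : I => ∃ p : I, mulI r p = mulI p c)

/-- integer coefficients of `1`, `ζ`, `ζ²` in the value of `ph1` at the index `t` -/
def c0 (t : I) : ℤ := if t.2.2.1 = 0 ∧ t.2.2.2.2 = 0 then (if t.1 = 0 then 0 else 1) else 0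
def c1 (t : I) : ℤ := if t.2.2.1 = 0 ∧ t.2.2.2.2 = 0 then (if t.1 = 1 then -1 else 0) else 0
def c2 (t : I) : ℤ := if t.2.2.1 = 0 ∧ t.2.2.2.2 = 0 then (if t.1 = 2 then -1 else 0) else 0

/-- sign `(-1)^l` -/
def sg (t : I) : ℤ := if t.2.2.2.1 = 0 then 1 else -1

/-- the integer sums -/
def S (c : I → ℤ) (u v : I) : ℤ := ∑ r ∈ clI u, ∑ s ∈ clI v, c (mulI r s)

section grp

variable {G : Type u} [Group G]

/-- the element with index `p` -/
def e (x y a b w : G) (p : I) : G :=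
  x ^ (p.1 : ℕ) * y ^ (p.2.1 : ℕ) * a ^ (p.2.2.1 : ℕ) * b ^ (p.2.2.2.1 : ℕ) * w ^ (p.2.2.2.2 : ℕ)

variable {T N : Subgroup G} {x y a b w : G}

theorem nf_congr (hc : Cfg T N x y a b w) {i j k l m i' j' k' l' m' : ℕ}
    (hi : i % 3 = i' % 3) (hj : j % 3 = j' % 3) (hk : k % 2 = k' % 2) (hl : l % 2 = l' % 2)
    (hm : m % 2 = m' % 2) :
    x ^ i * y ^ j * a ^ k * b ^ l * w ^ m = x ^ i' * y ^ j' * a ^ k' * b ^ l' * w ^ m' := by
  have h1 : x ^ i = x ^ i' := by rw [pow_eq_pow_mod i hc.x3, pow_eq_pow_mod i' hc.x3, hi]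
  have h2 : y ^ j = y ^ j' := by rw [pow_eq_pow_mod j hc.y3, pow_eq_pow_mod j' hc.y3, hj]
  have h3 : a ^ k = a ^ k' := by rw [pow_eq_pow_mod k hc.a2, pow_eq_pow_mod k' hc.a2, hk]
  have h4 : b ^ l = b ^ l' := by rw [pow_eq_pow_mod l hc.b2, pow_eq_pow_mod l' hc.b2, hl]
  have h5 : w ^ m = w ^ m' := by rw [pow_eq_pow_mod m hc.w2, pow_eq_pow_mod m' hc.w2, hm]
  rw [h1, h2, h3, h4, h5]

variable [Finite G]

theorem e_inj (hNF : NF.{u}) (hc : Cfg T N x y a b w) {p q : I}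
    (h : e x y a b w p = e x y a b w q) : p = q := by
  obtain ⟨_, _, h3, _, _, _, _⟩ := hNF hc
  obtain ⟨i, j, k, l, m⟩ := p
  obtain ⟨i', j', k', l', m'⟩ := q
  obtain ⟨h1, h2, h3', h4, h5⟩ := h3 _ _ _ _ _ _ _ _ _ _ h
  simp only [Prod.mk.injEq]
  refine ⟨Fin.ext ?_, Fin.ext ?_, Fin.ext ?_, Fin.ext ?_, Fin.ext ?_⟩
  · have := i.isLt; have := i'.isLt; simp only at h1; omega
  · have := j.isLt; have := j'.isLt; simp only at h2; omega
  · have := k.isLt; have := k'.isLt; simp only at h3'; omega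
  · have := l.isLt; have := l'.isLt; simp only at h4; omega
  · have := m.isLt; have := m'.isLt; simp only at h5; omega

theorem memN (hNF : NF.{u}) (hc : Cfg T N x y a b w) (g : G) :
    g ∈ N ↔ ∃ p : I, g = e x y a b w p := by
  obtain ⟨_, h2, _, _, _, _, _⟩ := hNF hc
  rw [h2]
  constructor
  · rintro ⟨i, j, k, l, m, rfl⟩
    refine ⟨(⟨i % 3, Nat.mod_lt _ (by norm_num)⟩, ⟨j % 3, Nat.mod_lt _ (by norm_num)⟩,
      ⟨k % 2, Nat.mod_lt _ (by norm_num)⟩, ⟨l % 2, Nat.mod_lt _ (by norm_num)⟩,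
      ⟨m % 2, Nat.mod_lt _ (by norm_num)⟩), ?_⟩
    unfold e
    apply nf_congr hc <;> simp
  · rintro ⟨p, rfl⟩
    exact ⟨_, _, _, _, _, rfl⟩

theorem e_mul (hNF : NF.{u}) (hc : Cfg T N x y a b w) (p q : I) :
    e x y a b w p * e x y a b w q = e x y a b w (mulI p q) := by
  obtain ⟨_, _, _, h4, _, _, _⟩ := hNF hc
  unfold e
  rw [h4]
  obtain ⟨i, j, k, l, m⟩ := p
  obtain ⟨i', j', k', l', m'⟩ := q
  fin_cases k <;> fin_cases l <;> fin_cases m <;>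
    simp only [mulI, Fin.zero_eta, Fin.mk_one, Fin.isValue, Nat.zero_mod, Nat.one_mod, if_true,
      if_false, one_ne_zero] <;>
    apply nf_congr hc <;> simp [Fin.val_add, Fin.val_mul]

theorem eN (hNF : NF.{u}) (hc : Cfg T N x y a b w) (p : I) : e x y a b w p ∈ N :=
  (memN hNF hc _).2 ⟨p, rfl⟩

theorem ncl_eq [Fintype G] [DecidableEq G] (hNF : NF.{u}) (hc : Cfg T N x y a b w) (c : I) :
    ncl N (e x y a b w c) = (clI c).image (e x y a b w) := by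
  ext v
  simp only [ncl, Finset.mem_filter, Finset.mem_univ, true_and, Finset.mem_image, clI]
  constructor
  · rintro ⟨n, hn, rfl⟩
    obtain ⟨p, rfl⟩ := (memN hNF hc n).1 hn
    have hmem : e x y a b w p * e x y a b w c * (e x y a b w p)⁻¹ ∈ N :=
      N.mul_mem (N.mul_mem hn (eN hNF hc c)) (N.inv_mem hn)
    obtain ⟨r, hr⟩ := (memN hNF hc _).1 hmem
    refine ⟨r, ⟨p, ?_⟩, hr.symm⟩
    apply e_inj hNF hc
    rw [← e_mul hNF hc, ← e_mul hNF hc, ← hr]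
    group
  · rintro ⟨r, ⟨p, hp⟩, rfl⟩
    refine ⟨e x y a b w p, eN hNF hc p, ?_⟩
    have h1 : e x y a b w r * e x y a b w p = e x y a b w p * e x y a b w c := by
      rw [e_mul hNF hc, e_mul hNF hc, hp]
    rw [← h1]
    group

theorem lsum_eq [Fintype G] (hNF : NF.{u}) (hc : Cfg T N x y a b w) (H : Subgroup G)
    (φ : H → ℂ) (c d : I) :
    lsum N H φ (e x y a b w c) (e x y a b w d) =
      ∑ r ∈ clI c, ∑ s ∈ clI d, extendByZero H φ (e x y a b w (mulI r s)) := by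
  classical
  unfold lsum
  rw [ncl_eq hNF hc, ncl_eq hNF hc, Finset.sum_image (fun _ _ _ _ h => e_inj hNF hc h)]
  refine Finset.sum_congr rfl (fun r _ => ?_)
  rw [Finset.sum_image (fun _ _ _ _ h => e_inj hNF hc h)]
  refine Finset.sum_congr rfl (fun s _ => ?_)
  rw [e_mul hNF hc]

/-- membership of `e t` in `C_G(x)` -/
theorem e_mem_cent (hNF : NF.{u}) (hc : Cfg T N x y a b w) (t : I) :
    e x y a b w t ∈ Subgroup.centralizer ({x} : Set G) ↔ (t.2.2.1 = 0 ∧ t.2.2.2.2 = 0) := by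
  obtain ⟨_, _, h3, _, h5, _, _⟩ := hNF hc
  obtain ⟨i, j, k, l, m⟩ := t
  rw [h5]
  constructor
  · rintro ⟨i', j', l', h⟩
    have h' : x ^ (i : ℕ) * y ^ (j : ℕ) * a ^ (k : ℕ) * b ^ (l : ℕ) * w ^ (m : ℕ) =
        x ^ i' * y ^ j' * a ^ 0 * b ^ l' * w ^ 0 := by
      rw [pow_zero, pow_zero, mul_one, mul_one]
      exact h
    obtain ⟨_, _, hk, _, hm⟩ := h3 _ _ _ _ _ _ _ _ _ _ h'
    constructor
    · apply Fin.ext
      have := k.isLt
      simp only [Fin.val_zero]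
      omega
    · apply Fin.ext
      have := m.isLt
      simp only [Fin.val_zero]
      omega
  · rintro ⟨hk, hm⟩
    simp only at hk hm
    subst hk
    subst hm
    refine ⟨i, j, l, ?_⟩
    simp [e]

theorem e_cent_form (t : I) (h : t.2.2.1 = 0 ∧ t.2.2.2.2 = 0) :
    e x y a b w t = x ^ (t.1 : ℕ) * y ^ (t.2.1 : ℕ) * b ^ (t.2.2.2.1 : ℕ) := by
  obtain ⟨i, j, k, l, m⟩ := t
  obtain ⟨hk, hm⟩ := h
  simp only at hk hm
  subst hk
  subst hm
  simp [e]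

theorem ext_ph1 (hNF : NF.{u}) (hc : Cfg T N x y a b w)
    (f g : Subgroup.centralizer ({x} : Set G) →* ℂˣ) (hO : Om2 x y b f g)
    (hx : x ∈ Subgroup.centralizer ({x} : Set G)) (t : I) :
    extendByZero (Subgroup.centralizer ({x} : Set G)) (ph1 x f) (e x y a b w t) =
      if t.2.2.1 = 0 ∧ t.2.2.2.2 = 0 then 1 - ((f ⟨x, hx⟩ : ℂˣ) : ℂ) ^ (t.1 : ℕ) else 0 := by
  obtain ⟨_, _, _, _, _, h6, _⟩ := hNF hc
  by_cases hP : t.2.2.1 = 0 ∧ t.2.2.2.2 = 0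
  · rw [if_pos hP]
    have hmem := (e_mem_cent hNF hc t).2 hP
    have hform := e_cent_form (x := x) (y := y) (a := a) (b := b) (w := w) t hP
    have hmem' : x ^ (t.1 : ℕ) * y ^ (t.2.1 : ℕ) * b ^ (t.2.2.2.1 : ℕ) ∈
        Subgroup.centralizer ({x} : Set G) := hform ▸ hmem
    have h1 : extendByZero (Subgroup.centralizer ({x} : Set G)) (ph1 x f) (e x y a b w t) =
        ph1 x f ⟨e x y a b w t, hmem⟩ :=
      Subtype.val_injective.extend_apply (ph1 x f) 0 ⟨e x y a b w t, hmem⟩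
    have h2 : (⟨e x y a b w t, hmem⟩ : Subgroup.centralizer ({x} : Set G)) =
        ⟨x ^ (t.1 : ℕ) * y ^ (t.2.1 : ℕ) * b ^ (t.2.2.2.1 : ℕ), hmem'⟩ := Subtype.ext hform
    rw [h1, h2]
    unfold ph1
    rw [(h6 f g hO _ _ _ hmem' hx).1]
    simp
  · rw [if_neg hP]
    have hmem : e x y a b w t ∉ Subgroup.centralizer ({x} : Set G) :=
      fun h => hP ((e_mem_cent hNF hc t).1 h)
    unfold extendByZero
    rw [Function.extend_apply']
    · rfl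
    · rintro ⟨z, hz⟩
      exact hmem (hz ▸ z.2)

theorem ext_ph2 (hNF : NF.{u}) (hc : Cfg T N x y a b w)
    (f g : Subgroup.centralizer ({x} : Set G) →* ℂˣ) (hO : Om2 x y b f g)
    (hx : x ∈ Subgroup.centralizer ({x} : Set G)) (t : I) :
    extendByZero (Subgroup.centralizer ({x} : Set G)) (ph2 x f g) (e x y a b w t) =
      if t.2.2.1 = 0 ∧ t.2.2.2.2 = 0 then
        (-1 : ℂ) ^ (t.2.2.2.1 : ℕ) * (1 - ((f ⟨x, hx⟩ : ℂˣ) : ℂ) ^ (t.1 : ℕ)) else 0 := by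
  obtain ⟨_, _, _, _, _, h6, _⟩ := hNF hc
  by_cases hP : t.2.2.1 = 0 ∧ t.2.2.2.2 = 0
  · rw [if_pos hP]
    have hmem := (e_mem_cent hNF hc t).2 hP
    have hform := e_cent_form (x := x) (y := y) (a := a) (b := b) (w := w) t hP
    have hmem' : x ^ (t.1 : ℕ) * y ^ (t.2.1 : ℕ) * b ^ (t.2.2.2.1 : ℕ) ∈
        Subgroup.centralizer ({x} : Set G) := hform ▸ hmem
    have h1 : extendByZero (Subgroup.centralizer ({x} : Set G)) (ph2 x f g) (e x y a b w t) =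
        ph2 x f g ⟨e x y a b w t, hmem⟩ :=
      Subtype.val_injective.extend_apply (ph2 x f g) 0 ⟨e x y a b w t, hmem⟩
    have h2 : (⟨e x y a b w t, hmem⟩ : Subgroup.centralizer ({x} : Set G)) =
        ⟨x ^ (t.1 : ℕ) * y ^ (t.2.1 : ℕ) * b ^ (t.2.2.2.1 : ℕ), hmem'⟩ := Subtype.ext hform
    rw [h1, h2]
    unfold ph2
    rw [(h6 f g hO _ _ _ hmem' hx).1, (h6 f g hO _ _ _ hmem' hx).2]
    simp
    ring
  · rw [if_neg hP]
    have hmem : e x y a b w t ∉ Subgroup.centralizer ({x} : Set G) :=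
      fun h => hP ((e_mem_cent hNF hc t).1 h)
    unfold extendByZero
    rw [Function.extend_apply']
    · rfl
    · rintro ⟨z, hz⟩
      exact hmem (hz ▸ z.2)

/-- `ζ = f x` is a primitive cube root of unity -/
theorem zeta_eq (hc : Cfg T N x y a b w)
    (f g : Subgroup.centralizer ({x} : Set G) →* ℂˣ) (hO : Om2 x y b f g)
    (hx : x ∈ Subgroup.centralizer ({x} : Set G)) :
    ((f ⟨x, hx⟩ : ℂˣ) : ℂ) ^ 2 + ((f ⟨x, hx⟩ : ℂˣ) : ℂ) + 1 = 0 := by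
  have h3 : (f ⟨x, hx⟩) ^ 3 = 1 := by
    rw [← map_pow]
    have : (⟨x, hx⟩ : Subgroup.centralizer ({x} : Set G)) ^ 3 = 1 := by
      apply Subtype.ext
      simp [hc.x3]
    rw [this, map_one]
  have h3' : ((f ⟨x, hx⟩ : ℂˣ) : ℂ) ^ 3 = 1 := by
    have := congrArg (fun u : ℂˣ => (u : ℂ)) h3
    simpa using this
  have hne : ((f ⟨x, hx⟩ : ℂˣ) : ℂ) ≠ 1 := by
    intro h
    exact hO.fx hx (Units.ext h)
  have hne' : ((f ⟨x, hx⟩ : ℂˣ) : ℂ) - 1 ≠ 0 := sub_ne_zero.mpr hne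
  apply mul_left_cancel₀ hne'
  linear_combination h3'

theorem val1_eq (ζ : ℂ) (t : I) :
    (if t.2.2.1 = 0 ∧ t.2.2.2.2 = 0 then 1 - ζ ^ (t.1 : ℕ) else 0) =
      (c0 t : ℂ) + (c1 t : ℂ) * ζ + (c2 t : ℂ) * ζ ^ 2 := by
  obtain ⟨i, j, k, l, m⟩ := t
  unfold c0 c1 c2
  by_cases hP : k = 0 ∧ m = 0
  · simp only [hP, and_self, if_true]
    fin_cases i <;> simp <;> ring
  · simp only [hP, if_false]
    simp

theorem val2_eq (ζ : ℂ) (t : I) :
    (if t.2.2.1 = 0 ∧ t.2.2.2.2 = 0 then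
        (-1 : ℂ) ^ (t.2.2.2.1 : ℕ) * (1 - ζ ^ (t.1 : ℕ)) else 0) =
      ((sg t * c0 t : ℤ) : ℂ) + ((sg t * c1 t : ℤ) : ℂ) * ζ + ((sg t * c2 t : ℤ) : ℂ) * ζ ^ 2 := by
  obtain ⟨i, j, k, l, m⟩ := t
  unfold c0 c1 c2 sg
  by_cases hP : k = 0 ∧ m = 0
  · simp only [hP, and_self, if_true]
    fin_cases i <;> fin_cases l <;> simp <;> ring
  · simp only [hP, if_false]
    simp

theorem sum_decomp (ζ : ℂ) (A B : Finset I) (k0 k1 k2 : I → ℤ) :
    ∑ r ∈ A, ∑ s ∈ B, ((k0 (mulI r s) : ℂ) + (k1 (mulI r s) : ℂ) * ζ +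
        (k2 (mulI r s) : ℂ) * ζ ^ 2) =
      ((∑ r ∈ A, ∑ s ∈ B, k0 (mulI r s) : ℤ) : ℂ) +
        ((∑ r ∈ A, ∑ s ∈ B, k1 (mulI r s) : ℤ) : ℂ) * ζ +
        ((∑ r ∈ A, ∑ s ∈ B, k2 (mulI r s) : ℤ) : ℂ) * ζ ^ 2 := by
  push_cast
  simp only [Finset.sum_add_distrib, Finset.sum_mul]

/-- **Main engine**: a local pair sum from four decidable integer identities. -/
theorem loc_of_counts [Fintype G] (hNF : NF.{u}) (hc : Cfg T N x y a b w)
    (f g : Subgroup.centralizer ({x} : Set G) →* ℂˣ) (hO : Om2 x y b f g)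
    (c d : I) (c' d' : G) (hc' : e x y a b w c = c') (hd' : e x y a b w d = d')
    (v₁ v₂ : ℤ) (V₁ V₂ : ℂ) (hV₁ : (v₁ : ℂ) = V₁) (hV₂ : (v₂ : ℂ) = V₂)
    (h1a : S c1 c d = S c2 c d) (h1b : S c0 c d - S c1 c d = v₁)
    (h2a : S (fun t => sg t * c1 t) c d = S (fun t => sg t * c2 t) c d)
    (h2b : S (fun t => sg t * c0 t) c d - S (fun t => sg t * c1 t) c d = v₂) :
    LocP N x f g c' d' V₁ V₂ := by
  have hx : x ∈ Subgroup.centralizer ({x} : Set G) := by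
    rw [Subgroup.mem_centralizer_iff]
    intro h hh
    rw [Set.mem_singleton_iff] at hh
    rw [hh]
  have hζ := zeta_eq hc f g hO hx
  subst hc' hd' hV₁ hV₂
  constructor
  · rw [lsum_eq hNF hc]
    simp only [ext_ph1 hNF hc f g hO hx, val1_eq]
    generalize ((f ⟨x, hx⟩ : ℂˣ) : ℂ) = ζ at hζ ⊢
    rw [sum_decomp]
    have e0 : (∑ r ∈ clI c, ∑ s ∈ clI d, c0 (mulI r s)) = S c0 c d := rfl
    have e1 : (∑ r ∈ clI c, ∑ s ∈ clI d, c1 (mulI r s)) = S c1 c d := rfl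
    have e2 : (∑ r ∈ clI c, ∑ s ∈ clI d, c2 (mulI r s)) = S c2 c d := rfl
    rw [e0, e1, e2, ← h1a, ← h1b]
    push_cast
    linear_combination (S c1 c d : ℂ) * hζ
  · rw [lsum_eq hNF hc]
    simp only [ext_ph2 hNF hc f g hO hx, val2_eq]
    generalize ((f ⟨x, hx⟩ : ℂˣ) : ℂ) = ζ at hζ ⊢
    rw [sum_decomp ζ _ _ (fun t => sg t * c0 t) (fun t => sg t * c1 t) (fun t => sg t * c2 t)]
    have e0 : (∑ r ∈ clI c, ∑ s ∈ clI d, (fun t => sg t * c0 t) (mulI r s)) =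
        S (fun t => sg t * c0 t) c d := rfl
    have e1 : (∑ r ∈ clI c, ∑ s ∈ clI d, (fun t => sg t * c1 t) (mulI r s)) =
        S (fun t => sg t * c1 t) c d := rfl
    have e2 : (∑ r ∈ clI c, ∑ s ∈ clI d, (fun t => sg t * c2 t) (mulI r s)) =
        S (fun t => sg t * c2 t) c d := rfl
    rw [e0, e1, e2, ← h2a, ← h2b]
    push_cast
    linear_combination (S (fun t => sg t * c1 t) c d : ℂ) * hζ

end grp

end Cfsg.Agent.Lib.Helper7.D8Loc
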