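import Mathlib
import Cfsg.Agent.Lib.Helper32.D8Stmt
import Cfsg.Agent.Lib.Helper7.D8Loc

set_option autoImplicit false

/-!
# S3716 piece LOCww (via the generic engine `Helper7.D8Loc`)
-/

namespace Cfsg.Agent.Lib.Helper7.D8LOCww

open Cfsg
open Cfsg.Agent.Lib.Helper32.D8Stmt
open Cfsg.Agent.Lib.Helper7.D8Loc

universe u

theorem main (hNF : NF.{u}) : LOCww.{u} := by
  intro G _ _ T N x y a b w hc f g hO
  exact loc_of_counts hNF hc f g hO (0, 0, 0, 0, 1) (0, 0, 0, 0, 1) w w
    (by simp [e]) (by simp [e]) 18 18 18 18 (by norm_num) (by norm_num)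
    (by decide +kernel) (by decide +kernel) (by decide +kernel) (by decide +kernel)

end Cfsg.Agent.Lib.Helper7.D8LOCww
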