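import Mathlib
import Cfsg.Agent.Lib.Helper44.SMStmt

set_option autoImplicit false

/-! Piece COS of S2721 (helper7): the coset reduction in `pgoAut`. -/

namespace Cfsg.Agent.Lib.Helper7.SMCOS

open Matrix
open Cfsg.Agent.Lib.Helper44.QSpace Cfsg.Agent.Lib.Helper44.OGroup Cfsg.Agent.Lib.Helper44.OMat
open Cfsg.Agent.Lib.Helper45.OmegaAut Cfsg.Agent.Lib.Helper45.OmegaAutPsi
open Cfsg.Agent.Lib.Helper45.OmegaAutMain Cfsg.Agent.Lib.Helper45.OmegaInndiag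
open Cfsg.Agent.Lib.Helper44.SMStmt

universe u

theorem z2_aux : ∀ a b : Multiplicative (ZMod 2), a ≠ 1 → b ≠ 1 → a * b⁻¹ = 1 := by decide

theorem main : PoMem.{u} → PgoCoset.{u} := by
  intro hPO F _ _ ι _ _ Q h2 v₀ hv₀ δ hδ h hh
  obtain ⟨hpo, -⟩ := hPO F ι Q
  rw [pgo_eq] at hh
  obtain ⟨g, rfl⟩ := hh
  by_cases hg : IsSquare (mu Q g)
  · exact Or.inl (hpo v₀ hv₀ g hg)
  · right
    have h1 : chi h2 (mu Q g) ≠ 1 := fun h => hg ((chi_eq_one_iff h2 _).mp h)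
    have h2' : chi h2 (mu Q δ) ≠ 1 := fun h => hδ ((chi_eq_one_iff h2 _).mp h)
    have h3 : IsSquare (mu Q (g * δ⁻¹)) := by
      rw [← chi_eq_one_iff h2, ← muHom_apply Q hv₀, map_mul, map_inv, map_mul, map_inv,
        muHom_apply, muHom_apply]
      exact z2_aux _ _ h1 h2'
    have h4 := hpo v₀ hv₀ (g * δ⁻¹) h3
    rwa [map_mul, map_inv] at h4

end Cfsg.Agent.Lib.Helper7.SMCOS
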