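import Mathlib
import Cfsg.Agent.Lib.Helper44.SMStmt
import Cfsg.Agent.S0752

set_option autoImplicit false

/-! Piece DARB of S2721 (helper7): Darboux normal form of an invertible alternating matrix,
from the landed S0752. -/

namespace Cfsg.Agent.Lib.Helper7.SMDARB

open Matrix
open Cfsg.Agent.Lib.Helper44.SMStmt

universe u

theorem entry {F : Type u} [Field F] {ι : Type} [Fintype ι] [DecidableEq ι]
    (A P : Matrix ι ι F) (i j : ι) :
    (Pᵀ * A * P) i j = (fun r => P r i) ⬝ᵥ A *ᵥ (fun r => P r j) := by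
  simp only [Matrix.mul_apply, Matrix.transpose_apply, dotProduct, Matrix.mulVec,
    Finset.sum_mul, Finset.mul_sum]
  rw [Finset.sum_comm]
  refine Finset.sum_congr rfl fun x _ => Finset.sum_congr rfl fun y _ => ?_
  ring

theorem main : Darboux.{u} := by
  intro F _ ι _ _ A k h2 hA hdet hcard
  classical
  -- the alternating form
  have halt : (Matrix.toBilin' A).IsAlt := by
    intro x
    rw [Matrix.toBilin'_apply']
    have h1 : x ⬝ᵥ A *ᵥ x = -(x ⬝ᵥ A *ᵥ x) := by
      calc x ⬝ᵥ A *ᵥ x = x ᵥ* A ⬝ᵥ x := Matrix.dotProduct_mulVec x A x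
        _ = x ⬝ᵥ (x ᵥ* A) := dotProduct_comm _ _
        _ = x ⬝ᵥ (Aᵀ *ᵥ x) := by rw [Matrix.mulVec_transpose]
        _ = -(x ⬝ᵥ A *ᵥ x) := by rw [hA, Matrix.neg_mulVec, dotProduct_neg]
    have h3 : (2 : F) * (x ⬝ᵥ A *ᵥ x) = 0 := by linear_combination h1
    rcases mul_eq_zero.mp h3 with h | h
    · exact absurd h h2
    · exact h
  obtain ⟨m, k', b, h1, h2', h3, h4⟩ := Cfsg.Agent.S0752.result (Matrix.toBilin' A) halt
  -- no radical
  have hk' : k' = 0 := by
    by_contra hne
    have j : Fin k' := ⟨0, Nat.pos_of_ne_zero hne⟩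
    have hz : b (Sum.inr j) ᵥ* A = 0 := by
      funext i
      have := h4 j (Pi.single i 1)
      rw [Matrix.toBilin'_apply', Matrix.dotProduct_mulVec, dotProduct_single, mul_one] at this
      exact this
    exact b.ne_zero (Sum.inr j) (Matrix.eq_zero_of_vecMul_eq_zero hdet hz)
  subst hk'
  have hm : m = k := by
    have hc := Module.finrank_eq_card_basis b
    rw [Module.finrank_fintype_fun_eq_card, hcard] at hc
    simp only [Fintype.card_sum, Fintype.card_fin] at hc
    omega
  subst hm
  have hce : Fintype.card ι = Fintype.card (Fin m ⊕ Fin m) := by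
    rw [hcard, Fintype.card_sum, Fintype.card_fin]; omega
  let e : ι ≃ Fin m ⊕ Fin m := Fintype.equivOfCardEq hce
  let w : Fin m ⊕ Fin m → (ι → F) :=
    Sum.elim (fun i => b (Sum.inl (Sum.inr i))) (fun j => b (Sum.inl (Sum.inl j)))
  let P : Matrix ι ι F := Matrix.of fun r c => w (e c) r
  have hskew : ∀ x y : ι → F, Matrix.toBilin' A y x = - Matrix.toBilin' A x y :=
    fun x y => (halt.neg_eq x y).symm
  have hJ : (Pᵀ * A * P).submatrix e.symm e.symm = Matrix.J (Fin m) F := by
    ext a c
    rw [Matrix.submatrix_apply, entry]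
    have hcol : ∀ a : Fin m ⊕ Fin m, (fun r => P r (e.symm a)) = w a := by
      intro a
      funext r
      simp only [P, Matrix.of_apply, Equiv.apply_symm_apply]
    rw [hcol, hcol, ← Matrix.toBilin'_apply']
    rcases a with i | i <;> rcases c with j | j
    · simp only [w, Sum.elim_inl, Matrix.J, Matrix.fromBlocks_apply₁₁, Matrix.zero_apply]
      exact h3 i j
    · simp only [w, Sum.elim_inl, Sum.elim_inr, Matrix.J, Matrix.fromBlocks_apply₁₂,
        Matrix.neg_apply, Matrix.one_apply]
      rw [hskew, h1]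
      by_cases hij : i = j
      · subst hij; simp
      · have : ¬ j = i := fun h => hij h.symm
        simp [hij, this]
    · simp only [w, Sum.elim_inl, Sum.elim_inr, Matrix.J, Matrix.fromBlocks_apply₂₁,
        Matrix.one_apply]
      exact h1 i j
    · simp only [w, Sum.elim_inr, Matrix.J, Matrix.fromBlocks_apply₂₂, Matrix.zero_apply]
      exact h2' i j
  refine ⟨e, P, ?_, hJ⟩
  intro hP
  have hd : (Pᵀ * A * P).det = (Matrix.J (Fin m) F).det := by
    rw [← hJ, Matrix.det_submatrix_equiv_self]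
  rw [Matrix.det_mul, hP, mul_zero] at hd
  have := Matrix.J_det_mul_J_det (Fin m) F
  rw [← hd, mul_zero] at this
  exact zero_ne_one this

end Cfsg.Agent.Lib.Helper7.SMDARB
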