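import Mathlib
import Cfsg.Agent.Lib.Helper44.SMStmt

set_option autoImplicit false

/-! Piece PSO of S2721 (helper7): `psoAut ≤ D0`. -/

namespace Cfsg.Agent.Lib.Helper7.SMPSO

open Matrix
open Cfsg.Agent.Lib.Helper44.QSpace Cfsg.Agent.Lib.Helper44.OGroup Cfsg.Agent.Lib.Helper44.OMat
open Cfsg.Agent.Lib.Helper45.OmegaAut Cfsg.Agent.Lib.Helper45.OmegaAutPsi
open Cfsg.Agent.Lib.Helper45.OmegaAutMain Cfsg.Agent.Lib.Helper45.OmegaInndiag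
open Cfsg.Agent.Lib.Helper44.SMStmt

universe u

theorem main : PsoLe.{u} := by
  intro F _ _ ι _ _ Q h2 hS k hk v₀ hv₀
  rw [pso_eq]
  rintro β ⟨g, hg, rfl⟩
  have hg' : (g : GL ι F) ∈ Cfsg.specialIsometryGL F ⇑Q := hg
  exact ⟨g, (mem_G0 Q hv₀ k g).mpr
    ((psi_eq_one_iff Q h2 hS hv₀ hk g).mp (psi_so Q h2 hS hv₀ hk g hg')).2, rfl⟩

end Cfsg.Agent.Lib.Helper7.SMPSO
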