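import Mathlib
import Cfsg.Agent.Lib.Helper80.BTStmt
import Cfsg.Agent.Lib.Helper80.Integrality
import Cfsg.Agent.Lib.Helper80.FTRES

set_option autoImplicit false

/-! S0997 piece QTWO: in type II with `e = q^j`, `j ≥ 1`, the degree equation modulo `q`
gives `q = 2`. -/

namespace Cfsg.Agent.Lib.Helper7.BTQTWO

open Cfsg Cfsg.Agent.Lib.Helper80.BTStmt

universe u

theorem main : QTWO.{u} := by
  classical
  intro G _ _ p q b g₀ hH c hX hY hII hpow
  obtain ⟨-, -, hp, hq, -, hcard, hg₀⟩ := hH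
  obtain ⟨j, hj1, hj⟩ := hpow
  obtain ⟨⟨θ, hθ⟩, -⟩ := hY
  obtain ⟨hεm, hIIdeg⟩ := hII
  obtain ⟨⟨t, ht, ht1⟩, hXq⟩ := hX
  have hg₀pos : 0 < g₀ := by
    rcases Nat.eq_zero_or_pos g₀ with h0 | h0
    · exfalso
      have hG : Nat.card G = 0 := by rw [hcard, h0, Nat.mul_zero]
      exact Nat.card_pos.ne' hG
    · exact h0
  have hp3 : 3 ≤ p := by omega
  have : Fact p.Prime := ⟨hp⟩
  have hedvd : c.e ∣ p - 1 := by
    rw [← c.he]
    exact Cfsg.Agent.Lib.Helper80.FTRES.relIndex_dvd c.P c.hP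
  have hfe := hIIdeg θ hθ
  have hqe : q ∣ c.e := by
    rw [hj]
    exact dvd_pow_self q (by omega)
  have hepos : 0 < c.e := by
    rw [hj]
    exact pow_pos hq.pos j
  -- the degree equation at `1`
  have h1 : ¬ p ∣ orderOf (1 : G) := by
    rw [orderOf_one]
    exact fun h => hp.one_lt.ne' (Nat.dvd_one.1 h)
  have hdeg := c.hYX θ hθ 1 h1
  have hXfin : c.X.Finite := by
    have : Finite ↥c.X := Nat.finite_of_card_ne_zero (by rw [c.hX]; exact hepos.ne')
    exact Set.toFinite c.X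
  rw [finsum_mem_eq_finite_toFinset_sum _ hXfin] at hdeg
  set S := hXfin.toFinset with hS
  have htS : t ∈ S := by rw [hS]; exact (Set.Finite.mem_toFinset hXfin).2 ht
  have hmemS : ∀ χ ∈ S, χ ∈ c.X := fun χ hχ => (Set.Finite.mem_toFinset hXfin).1 hχ
  let F : IrrCharacter G → ℤ := fun χ => c.εX χ * (charDegree (χ : G → ℂ) : ℤ)
  have hcast : ∀ χ : IrrCharacter G, (c.εX χ : ℂ) * (χ : G → ℂ) 1 = ((F χ : ℤ) : ℂ) := by
    intro χ
    have h := Cfsg.Agent.Lib.Helper80.Integrality.apply_one_eq_charDegree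
      (Cfsg.Agent.Lib.Helper80.Integrality.isCharacter_of_isIrrCharacter χ.2)
    rw [h]
    simp only [F]
    push_cast
    ring
  have hθ1 : (θ : G → ℂ) 1 = ((charDegree (θ : G → ℂ) : ℤ) : ℂ) := by
    have h := Cfsg.Agent.Lib.Helper80.Integrality.apply_one_eq_charDegree
      (Cfsg.Agent.Lib.Helper80.Integrality.isCharacter_of_isIrrCharacter θ.2)
    rw [h]
    push_cast
    ring
  have hint : -(charDegree (θ : G → ℂ) : ℤ) = ∑ χ ∈ S, F χ := by
    have h2 : ((-(charDegree (θ : G → ℂ) : ℤ) : ℤ) : ℂ) = ((∑ χ ∈ S, F χ : ℤ) : ℂ) := by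
      rw [Int.cast_sum, ← Finset.sum_congr rfl (fun χ _ => hcast χ), ← hdeg, hεm, hθ1]
      push_cast
      ring
    exact_mod_cast h2
  -- the trivial character contributes `1`
  have hdt : charDegree (t : G → ℂ) = 1 := by
    rw [ht1]
    simp [charDegree]
  have hεt : c.εX t = 1 := by
    obtain ⟨h1', h2', -⟩ := c.hεX t ht
    rcases h1' with h | h
    · exact h
    · exfalso
      rw [hdt, h] at h2'
      have h3 : (p : ℤ) ∣ -1 - 1 := by simpa using h2'.dvd
      obtain ⟨k, hk⟩ := h3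
      have hp3' : (3 : ℤ) ≤ (p : ℤ) := by exact_mod_cast hp3
      have hk' : k ≤ -1 ∨ 0 ≤ k := by omega
      rcases hk' with hk' | hk'
      · nlinarith
      · nlinarith
  have hFt : F t = 1 := by
    simp only [F]
    rw [hεt, hdt]
    norm_num
  have hrest : (q : ℤ) ∣ ∑ χ ∈ S.erase t, F χ := by
    apply Finset.dvd_sum
    intro χ hχ
    have hne : χ ≠ t := Finset.ne_of_mem_erase hχ
    have hχS : χ ∈ S := Finset.mem_of_mem_erase hχ
    have hne' : (χ : G → ℂ) ≠ (fun _ => 1) := by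
      intro h
      apply hne
      apply Subtype.ext
      rw [h, ht1]
    have hq' := hXq χ (hmemS χ hχS) hne'
    simp only [F]
    exact Dvd.dvd.mul_left (Int.natCast_dvd_natCast.2 hq') _
  have hsplit := Finset.add_sum_erase S F htS
  rw [hFt] at hsplit
  have hqf : (q : ℤ) ∣ (charDegree (θ : G → ℂ) : ℤ) + 1 := by
    obtain ⟨k, hk⟩ := hrest
    refine ⟨-k, ?_⟩
    have : -(charDegree (θ : G → ℂ) : ℤ) = 1 + (q : ℤ) * k := by
      rw [hint, ← hsplit, hk]
    linarith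
  have hqf' : q ∣ charDegree (θ : G → ℂ) + 1 := by
    exact_mod_cast hqf
  have hq1 : q ∣ p - 1 := dvd_trans hqe hedvd
  have hq2 : q ∣ p + 1 := by
    have h : q ∣ (charDegree (θ : G → ℂ) + 1) + c.e := Nat.dvd_add hqf' hqe
    have h' : (charDegree (θ : G → ℂ) + 1) + c.e = p + 1 := by omega
    rwa [h'] at h
  have hq3 : q ∣ 2 := by
    have h : q ∣ (p + 1) - (p - 1) := Nat.dvd_sub hq2 hq1
    have h' : (p + 1) - (p - 1) = 2 := by omega
    rwa [h'] at h
  exact (Nat.prime_dvd_prime_iff_eq hq Nat.prime_two).1 hq3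

end Cfsg.Agent.Lib.Helper7.BTQTWO
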