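import Mathlib
import Cfsg.Agent.Lib.Helper26.J3Stmt

set_option autoImplicit false

/-! S3366 piece CON4 (second seat): the normal forms `ι u * z ^ c * κ A` lie in the stabilizer of
the first basis vector and are pairwise distinct (read off the matrix entries; the entries are
checked by kernel evaluation over the 648 triples). -/

namespace Cfsg.Agent.Lib.Helper7.J3CON4

open Cfsg Cfsg.Agent.Lib.Helper26.J3Stmt

set_option maxRecDepth 100000 in
theorem entries : ∀ (u : V) (c : ZMod 3) (A : SL),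
    (∀ i, (iotaM u * zM ^ c.val * kapM A) i (Sum.inl 0) = if i = Sum.inl 0 then 1 else 0) ∧
    (iotaM u * zM ^ c.val * kapM A) (Sum.inl 1) (Sum.inr 0) = u 0 ∧
    (iotaM u * zM ^ c.val * kapM A) (Sum.inr 1) (Sum.inr 0) = u 1 ∧
    (iotaM u * zM ^ c.val * kapM A) (Sum.inl 0) (Sum.inr 0) = c ∧
    (iotaM u * zM ^ c.val * kapM A) (Sum.inl 1) (Sum.inl 1) = A.1 0 0 ∧
    (iotaM u * zM ^ c.val * kapM A) (Sum.inl 1) (Sum.inr 1) = A.1 0 1 ∧
    (iotaM u * zM ^ c.val * kapM A) (Sum.inr 1) (Sum.inl 1) = A.1 1 0 ∧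
    (iotaM u * zM ^ c.val * kapM A) (Sum.inr 1) (Sum.inr 1) = A.1 1 1 := by decide +kernel

/-- the matrix of a normal form -/
theorem coe_nf (ι : V → Sp) (z : Sp) (κ : SL →* Sp) (h : Model ι z κ) (u : V) (c : ZMod 3)
    (A : SL) : ((ι u * z ^ c.val * κ A : Sp) : Mat) = iotaM u * zM ^ c.val * kapM A := by
  obtain ⟨h1, h2, h3⟩ := h
  have e1 : ((ι u * z ^ c.val * κ A : Sp) : Mat) =
      (ι u : Mat) * (z : Mat) ^ c.val * (κ A : Mat) := rfl
  rw [e1, h1 u, h2, h3 A]

theorem main : CON4 := by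
  intro ι z κ hM
  constructor
  · intro u c A i
    rw [coe_nf ι z κ hM u c A]
    exact (entries u c A).1 i
  · rintro ⟨u, c, A⟩ ⟨u', c', A'⟩ heq
    have hmat : iotaM u * zM ^ c.val * kapM A = iotaM u' * zM ^ c'.val * kapM A' := by
      have h1 : ((ι u * z ^ c.val * κ A : Sp) : Mat) = ((ι u' * z ^ c'.val * κ A' : Sp) : Mat) :=
        congrArg Subtype.val heq
      rwa [coe_nf ι z κ hM u c A, coe_nf ι z κ hM u' c' A'] at h1
    obtain ⟨-, e1, e2, e3, e4, e5, e6, e7⟩ := entries u c A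
    obtain ⟨-, f1, f2, f3, f4, f5, f6, f7⟩ := entries u' c' A'
    rw [hmat] at e1 e2 e3 e4 e5 e6 e7
    have hu : u = u' := by
      funext i
      fin_cases i
      · exact e1.symm.trans f1
      · exact e2.symm.trans f2
    have hc : c = c' := e3.symm.trans f3
    have hA : A = A' := by
      apply Subtype.ext
      ext i j
      fin_cases i <;> fin_cases j
      · exact e4.symm.trans f4
      · exact e5.symm.trans f5
      · exact e6.symm.trans f6
      · exact e7.symm.trans f7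
    rw [hu, hc, hA]

end Cfsg.Agent.Lib.Helper7.J3CON4
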