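import Mathlib
import Cfsg.Agent.Lib.Helper26.J3Stmt

set_option autoImplicit false

/-! S3366 piece TNORM (parallel seat): a subgroup `T` of order 8 of `C_X(t)`, normal in `C_X(t)`.

`π : X → SL(2,3)` with kernel `R`; `Q := C_X(t) ∩ π⁻¹(Q8)` has order 24 (onto `Q8` by CT, kernel
`Z`); `T` is a Sylow 2-subgroup of `Q`, `Q = T × Z`, and a conjugate `τ' ζ` of `τ ∈ T` has
`ζ^8 = 1`, so `ζ = 1`. -/

namespace Cfsg.Agent.Lib.Helper7.J3TNORM

open Cfsg Cfsg.Agent.Lib.Helper26.J3Stmt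

universe u

theorem q8_mul : ∀ g h : SL, g ^ 4 = 1 → h ^ 4 = 1 → (g * h) ^ 4 = 1 := by decide +kernel

theorem q8_card : (Finset.univ.filter (fun g : SL => g ^ 4 = 1)).card = 8 := by decide +kernel

/-- the quaternion subgroup of `SL(2,3)` -/
def Q8 : Subgroup SL where
  carrier := {g | g ^ 4 = 1}
  mul_mem' := fun {a b} ha hb => q8_mul a b ha hb
  one_mem' := one_pow 4
  inv_mem' := fun {a} ha => by
    show (a⁻¹) ^ 4 = 1
    have ha' : a ^ 4 = 1 := ha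
    rw [inv_pow, ha', inv_one]

theorem card_Q8 : Nat.card Q8 = 8 := by
  have h : Nat.card {g : SL // g ^ 4 = 1} = 8 := by
    rw [Nat.card_eq_fintype_card, Fintype.card_subtype]
    exact q8_card
  exact h

theorem main : TNORM.{u} := by
  classical
  intro hCT X _ hH hZ t hT
  have hH' := hH
  have hT' := hT
  obtain ⟨hfin, -, -, hexp, ⟨e⟩, -, -⟩ := hH
  haveI := hfin
  obtain ⟨hZ3, hZR, -, -, hZcent⟩ := hZ
  obtain ⟨ht2, -, -, htinv⟩ := hT
  let π : X →* SL := e.toMonoidHom.comp (QuotientGroup.mk' (Cfsg.pCore 3 X))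
  have hπker : ∀ x : X, π x = 1 ↔ x ∈ Cfsg.pCore 3 X := by
    intro x
    have h1 : π x = e (QuotientGroup.mk x) := rfl
    rw [h1, MulEquiv.map_eq_one_iff]
    exact QuotientGroup.eq_one_iff x
  have hπsurj : Function.Surjective π := by
    intro g
    obtain ⟨y, hy⟩ := e.surjective g
    obtain ⟨x, hx⟩ := QuotientGroup.mk_surjective y
    exact ⟨x, by show e (QuotientGroup.mk x) = g; rw [hx, hy]⟩
  let Q : Subgroup X := Subgroup.centralizer ({t} : Set X) ⊓ Q8.comap π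
  have hmemQ : ∀ x : X, x ∈ Q ↔ (t * x = x * t ∧ π x ^ 4 = 1) := by
    intro x
    show x ∈ Subgroup.centralizer ({t} : Set X) ⊓ Q8.comap π ↔ _
    rw [Subgroup.mem_inf, Subgroup.mem_centralizer_iff, Subgroup.mem_comap]
    constructor
    · rintro ⟨h1, h2⟩
      exact ⟨h1 t rfl, h2⟩
    · rintro ⟨h1, h2⟩
      refine ⟨fun h hh => ?_, h2⟩
      rw [Set.mem_singleton_iff] at hh
      rw [hh]; exact h1
  have hZQ : Zc X ≤ Q := by
    intro z hz
    rw [hmemQ]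
    refine ⟨hZcent z hz t, ?_⟩
    have h1 : π z = 1 := (hπker z).2 (hZR hz)
    rw [h1, one_pow]
  have hkerQ : ∀ x ∈ Q, π x = 1 → x ∈ Zc X := by
    intro x hx hπ
    have hxR : x ∈ Cfsg.pCore 3 X := (hπker x).1 hπ
    have hc := ((hmemQ x).1 hx).1
    have h1 := htinv x hxR
    have h2 : t * x * t⁻¹ = x := by rw [hc]; group
    rw [h2] at h1
    have h3 : x = (x * x) * (x * x) := by
      have h4 := hexp x hxR
      calc x = x * x ^ 3 := by rw [h4, mul_one]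
        _ = (x * x) * (x * x) := by
          rw [pow_succ, pow_two]; simp only [mul_assoc]
    rw [h3]
    exact (Zc X).mul_mem h1 h1
  have hontoQ : ∀ g : SL, g ^ 4 = 1 → ∃ x ∈ Q, π x = g := by
    intro g hg
    obtain ⟨x0, hx0⟩ := hπsurj g
    obtain ⟨r, hr, hrt⟩ := hCT X hH' t hT' x0
    have hπr : π (r * x0) = g := by rw [map_mul, (hπker r).2 hr, one_mul, hx0]
    exact ⟨r * x0, (hmemQ _).2 ⟨hrt.symm, by rw [hπr]; exact hg⟩, hπr⟩
  let φ : ↥Q →* SL := π.comp Q.subtype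
  have hrange : φ.range = Q8 := by
    ext g
    constructor
    · rintro ⟨x, rfl⟩
      exact ((hmemQ x.1).1 x.2).2
    · intro hg
      obtain ⟨x, hx, hxg⟩ := hontoQ g hg
      exact ⟨⟨x, hx⟩, hxg⟩
  have hker : φ.ker = (Zc X).subgroupOf Q := by
    ext x
    rw [MonoidHom.mem_ker, Subgroup.mem_subgroupOf]
    constructor
    · intro h; exact hkerQ x.1 x.2 h
    · intro h; exact (hπker x.1).2 (hZR h)
  have hcardZ' : Nat.card ↥((Zc X).subgroupOf Q) = 3 := by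
    rw [← hZ3]
    exact Nat.card_congr (Subgroup.subgroupOfEquivOfLe hZQ).toEquiv
  have hcardQ : Nat.card ↥Q = 24 := by
    have h1 := Subgroup.card_eq_card_quotient_mul_card_subgroup φ.ker
    have h2 : Nat.card (↥Q ⧸ φ.ker) = 8 := by
      rw [Nat.card_congr (QuotientGroup.quotientKerEquivRange φ).toEquiv, hrange]
      exact card_Q8
    have h3 : Nat.card ↥φ.ker = 3 := by
      rw [hker]; exact hcardZ'
    rw [h1, h2, h3]
  obtain ⟨T'⟩ : Nonempty (Sylow 2 ↥Q) := inferInstance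
  have hcardT' : Nat.card ↥(T' : Subgroup ↥Q) = 8 := by
    haveI : Fact (Nat.Prime 2) := ⟨Nat.prime_two⟩
    obtain ⟨j, hj⟩ := IsPGroup.iff_card.mp T'.isPGroup'
    have hidx : ¬ 2 ∣ (T' : Subgroup ↥Q).index := T'.not_dvd_index
    have hmul : Nat.card ↥(T' : Subgroup ↥Q) * (T' : Subgroup ↥Q).index = 24 := by
      rw [Subgroup.card_mul_index, hcardQ]
    rw [hj] at hmul ⊢
    have hj4 : j ≤ 4 := by
      by_contra hcon
      have hcon' : 5 ≤ j := by omega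
      have h5 : 2 ^ 5 ≤ 2 ^ j := Nat.pow_le_pow_right (by norm_num) hcon'
      have hle : 2 ^ j ≤ 24 := Nat.le_of_dvd (by norm_num) ⟨_, hmul.symm⟩
      omega
    interval_cases j <;> simp at hmul ⊢ <;> omega
  let T : Subgroup X := (T' : Subgroup ↥Q).map Q.subtype
  have hcardT : Nat.card ↥T = 8 := by
    rw [← hcardT']
    exact Subgroup.card_map_of_injective Q.subtype_injective
  have hTQ : ∀ τ ∈ T, τ ∈ Q := by
    rintro τ ⟨x, -, rfl⟩
    exact x.2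
  refine ⟨T, hcardT, fun τ hτ => ((hmemQ τ).1 (hTQ τ hτ)).1.symm, ?_⟩
  intro n hn τ hτ
  have hτQ := hTQ τ hτ
  have hcQ : n * τ * n⁻¹ ∈ Q := by
    rw [hmemQ]
    obtain ⟨h1, h2⟩ := (hmemQ τ).1 hτQ
    constructor
    · have hn' : t * n = n * t := hn.symm
      have hn'' : t * n⁻¹ = n⁻¹ * t := by
        have h3 : n⁻¹ * t = n⁻¹ * (t * n) * n⁻¹ := by group
        rw [h3, hn']; group
      calc t * (n * τ * n⁻¹) = (t * n) * τ * n⁻¹ := by group
        _ = n * (t * τ) * n⁻¹ := by rw [hn']; group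
        _ = n * τ * (t * n⁻¹) := by rw [h1]; group
        _ = n * τ * n⁻¹ * t := by rw [hn'']; group
    · rw [map_mul, map_mul, map_inv, conj_pow, h2]
      group
  have hcompl : Subgroup.IsComplement' (T' : Subgroup ↥Q) ((Zc X).subgroupOf Q) := by
    apply Subgroup.isComplement'_of_coprime
    · rw [hcardT', hcardZ', hcardQ]
    · rw [hcardT', hcardZ']
      decide
  obtain ⟨⟨τ2, ζ⟩, hdec, -⟩ := hcompl.existsUnique (⟨n * τ * n⁻¹, hcQ⟩ : ↥Q)
  have hdecX : ((τ2 : ↥Q) : X) * ((ζ : ↥Q) : X) = n * τ * n⁻¹ := congrArg Subtype.val hdec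
  have hζZ : ((ζ : ↥Q) : X) ∈ Zc X := Subgroup.mem_subgroupOf.mp ζ.2
  have hτ8 : τ ^ 8 = 1 := by
    obtain ⟨x, hx, rfl⟩ := hτ
    have h1 : (⟨x, hx⟩ : ↥(T' : Subgroup ↥Q)) ^ Nat.card ↥(T' : Subgroup ↥Q) = 1 :=
      pow_card_eq_one'
    rw [hcardT'] at h1
    have h2 := congrArg (fun z : ↥(T' : Subgroup ↥Q) => ((z : ↥Q) : X)) h1
    simpa using h2
  have hτ28 : ((τ2 : ↥Q) : X) ^ 8 = 1 := by
    have h1 : τ2 ^ Nat.card ↥(T' : Subgroup ↥Q) = 1 := pow_card_eq_one'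
    rw [hcardT'] at h1
    have h2 := congrArg (fun z : ↥(T' : Subgroup ↥Q) => ((z : ↥Q) : X)) h1
    simpa using h2
  have hζ3 : ((ζ : ↥Q) : X) ^ 3 = 1 := by
    have h1 : (⟨((ζ : ↥Q) : X), hζZ⟩ : ↥(Zc X)) ^ Nat.card ↥(Zc X) = 1 := pow_card_eq_one'
    rw [hZ3] at h1
    have h2 := congrArg Subtype.val h1
    simpa using h2
  have hcommζ : Commute ((τ2 : ↥Q) : X) ((ζ : ↥Q) : X) := hZcent _ hζZ _
  have hζ8 : ((ζ : ↥Q) : X) ^ 8 = 1 := by
    have h1 : (n * τ * n⁻¹) ^ 8 = 1 := by rw [conj_pow, hτ8]; group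
    rw [← hdecX, hcommζ.mul_pow, hτ28, one_mul] at h1
    exact h1
  have hζ1 : ((ζ : ↥Q) : X) = 1 := by
    have h1 : ((ζ : ↥Q) : X) = (((ζ : ↥Q) : X) ^ 3) ^ 3 * (((ζ : ↥Q) : X) ^ 8)⁻¹ := by group
    rw [h1, hζ8, hζ3]; simp
  have hfin' : n * τ * n⁻¹ = ((τ2 : ↥Q) : X) := by rw [← hdecX, hζ1, mul_one]
  rw [hfin']
  exact Subgroup.mem_map.mpr ⟨(τ2 : ↥Q), τ2.2, rfl⟩

end Cfsg.Agent.Lib.Helper7.J3TNORM
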