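import Cfsg.Agent.Lib.Helper87.PCStmt
import Cfsg.Agent.Lib.Helper1.NRPELT

/-!
# Piece PK of S5243 (helper7)

The elements of `p`-power order of `Aut_F(N)`, `N ≤ T`, lie in `Aut_{K ∘ E}(N)`.
-/

set_option autoImplicit false

namespace Cfsg.Agent.Lib.Helper7.PCPK

open Cfsg Cfsg.FusionSystem Cfsg.Agent.H85 Cfsg.Agent.Lib.Helper87.PCStmt

universe u

/-- [PK] -/
theorem main : Cfsg.Agent.Lib.Helper87.PCStmt.PK.{u} := by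
  intro Ω _ S T _ p _ F E K c N hN β hβ k hk
  have : Finite T :=
    Finite.of_injective (Subgroup.inclusion c.hTS) (Subgroup.inclusion_injective c.hTS)
  have hNS : N ≤ S := hN.trans c.hTS
  have hβF : N.subtype.comp β.toMonoidHom ∈ F.Hom N := (mem_autGroup_iff F hNS β).mp hβ
  obtain ⟨α, hα, φ₀, hφ₀, hφα⟩ := c.hfrat N hN _ hβF
  have hφ₀T : ∀ x, φ₀ x ∈ T := (E.le_of_mem hφ₀).2
  have hinv : ∀ γ ∈ F.autGroup T, ∀ (P : Subgroup Ω) (hPT : P ≤ T) (φ : P →* Ω),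
      φ ∈ c.KS.Hom P → ConjMem c.KS γ hPT φ := by
    intro γ hγ P hPT φ hφ
    obtain ⟨κ, hκ, e, he, hφκ⟩ := (c.mem_KS_iff φ).mp hφ
    have heT : ∀ x, e x ∈ T := (E.le_of_mem he).2
    obtain ⟨χ₀, hχ₀, hχ₀x⟩ := c.hinv P hPT e he γ hγ
    have hχ₀T : ∀ y, χ₀ y ∈ T := (E.le_of_mem hχ₀).2
    refine ⟨(T.subtype.comp (γ * κ * γ⁻¹).toMonoidHom).comp (χ₀.codRestrict T hχ₀T), ?_, ?_⟩
    · exact (c.mem_KS_iff _).mpr
        ⟨γ * κ * γ⁻¹, c.hKn γ hγ κ hκ, χ₀, hχ₀, fun y hy => rfl⟩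
    · intro x hφx
      have h1 := hχ₀x x (heT x) (mem_autImage γ hPT x)
      have e1 : autRes γ hPT x = ⟨((γ ⟨x, hPT x.2⟩ : T) : Ω), mem_autImage γ hPT x⟩ :=
        Subtype.ext (coe_autRes γ hPT x)
      have e2 : (⟨χ₀ (autRes γ hPT x), hχ₀T _⟩ : T) = γ ⟨e x, heT x⟩ := by
        apply Subtype.ext
        show χ₀ (autRes γ hPT x) = _
        rw [e1, h1]
      have e3 : (⟨φ x, hφx⟩ : T) = κ ⟨e x, heT x⟩ := Subtype.ext (hφκ x (heT x))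
      show (((γ * κ * γ⁻¹) ⟨χ₀ (autRes γ hPT x), hχ₀T _⟩ : T) : Ω) = _
      rw [e2, e3]
      simp only [MulAut.mul_apply, MulAut.inv_apply_self]
  have hpow : ∀ γ ∈ F.autGroup T, ∃ m : ℕ, Nat.Coprime m p ∧ γ ^ m ∈ c.KS.autGroup T := by
    obtain ⟨m, hm, hK⟩ := c.hKm
    intro γ hγ
    refine ⟨m, hm, ?_⟩
    have hκ := hK γ hγ
    rw [mem_autGroup_iff c.KS le_rfl]
    exact (c.mem_KS_iff _).mpr
      ⟨γ ^ m, hκ, T.subtype, subtype_mem E le_rfl, fun x hx => rfl⟩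
  refine Cfsg.Agent.Lib.Helper1.NRPELT.main p c.KS (F.autGroup T) hinv hpow N hN α⁻¹
    (Subgroup.inv_mem _ hα) φ₀ ((c.mem_KS_iff φ₀).mpr (GoodA.of_mem hφ₀)) β ?_ k hk
  intro x
  have h := hφα x (hφ₀T x)
  have e : (⟨((β x : N) : Ω), hN (β x).2⟩ : T) = α ⟨φ₀ x, hφ₀T x⟩ := Subtype.ext h
  rw [e, MulAut.inv_apply_self]

end Cfsg.Agent.Lib.Helper7.PCPK
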