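import Mathlib
import Cfsg.Agent.Lib.Helper18.ReeHallStmt
import Cfsg.Agent.Lib.Helper7.ReeSpORB

set_option autoImplicit false

/-! Piece CONJT of S1158 (helper7): cyclic subgroups of the same order dividing `q ± r + 1`
are conjugate. -/

namespace Cfsg.Agent.Lib.Helper7.RHCONJT

open Cfsg.Agent.Lib.Helper42.ReeSpStmt
open Cfsg.Agent.Lib.Helper18.ReeHallStmt
open Cfsg.Agent.Lib.Helper7.ReeSpORB

universe u

section generic

variable {G : Type u} [Group G]

theorem cyc_gen (A : Subgroup G) (hA : IsCyclic ↥A) : ∃ a : G, A = Subgroup.zpowers a := by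
  obtain ⟨a, ha⟩ := IsCyclic.exists_generator (α := ↥A)
  refine ⟨(a : G), le_antisymm ?_ (Subgroup.zpowers_le.mpr a.2)⟩
  intro z hz
  obtain ⟨k, hk⟩ := Subgroup.mem_zpowers_iff.mp (ha ⟨z, hz⟩)
  refine Subgroup.mem_zpowers_iff.mpr ⟨k, ?_⟩
  have := congrArg Subtype.val hk
  simpa using this

/-- two elements of the same order with conjugates in a common finite cyclic subgroup generate
conjugate subgroups -/
theorem conj_of_common [Finite G] {C : Subgroup G} (hC : IsCyclic ↥C) {a b x y : G}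
    (hx : x * a * x⁻¹ ∈ C) (hy : y * b * y⁻¹ ∈ C) (ho : orderOf b = orderOf a) :
    ∃ g : G, Subgroup.zpowers b = (Subgroup.zpowers a).map (MulAut.conj g).toMonoidHom := by
  have ho' : orderOf (y * b * y⁻¹) = orderOf (x * a * x⁻¹) := by
    rw [ord_conj, ord_conj]; exact ho
  have h1 := mem_zpowers_sub C hC hx hy ho'
  have h2 := mem_zpowers_sub C hC hy hx ho'.symm
  have hz : Subgroup.zpowers (x * a * x⁻¹) = Subgroup.zpowers (y * b * y⁻¹) :=
    le_antisymm (Subgroup.zpowers_le.mpr h2) (Subgroup.zpowers_le.mpr h1)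
  refine ⟨y⁻¹ * x, ?_⟩
  have h := congrArg (Subgroup.map (MulAut.conj y⁻¹).toMonoidHom) hz
  rw [MonoidHom.map_zpowers, MonoidHom.map_zpowers] at h
  rw [MonoidHom.map_zpowers]
  have e1 : (MulAut.conj y⁻¹).toMonoidHom (x * a * x⁻¹) = (MulAut.conj (y⁻¹ * x)).toMonoidHom a := by
    show y⁻¹ * (x * a * x⁻¹) * y⁻¹⁻¹ = y⁻¹ * x * a * (y⁻¹ * x)⁻¹
    group
  have e2 : (MulAut.conj y⁻¹).toMonoidHom (y * b * y⁻¹) = b := by
    show y⁻¹ * (y * b * y⁻¹) * y⁻¹⁻¹ = b
    group
  rw [e1, e2] at h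
  exact h.symm

end generic

/-! ### arithmetic -/

theorem rr_le_qq (m : ℕ) : rr m ≤ qq m :=
  Nat.pow_le_pow_right (by norm_num) (by omega)

theorem rr_sq (m : ℕ) : rr m * rr m = 3 * qq m := by
  show 3 ^ (m + 1) * 3 ^ (m + 1) = 3 * 3 ^ (2 * m + 1)
  rw [← pow_add, ← pow_succ']
  congr 1
  omega

theorem tor_mul (m : ℕ) :
    (qq m + rr m + 1) * (qq m - rr m + 1) = qq m ^ 2 - qq m + 1 := by
  have h1 := rr_le_qq m
  have h2 := rr_sq m
  obtain ⟨s, hs⟩ : ∃ s, qq m = rr m + s := ⟨qq m - rr m, by omega⟩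
  have e1 : qq m - rr m = s := by omega
  have e2 : qq m ^ 2 - qq m = qq m * (qq m - 1) := by
    rw [Nat.mul_sub, mul_one, sq]
  have hq3 := three_le_qq m
  obtain ⟨a, ha⟩ : ∃ a, qq m = a + 1 := ⟨qq m - 1, by omega⟩
  have e3 : qq m - 1 = a := by omega
  rw [e1, e2, e3]
  have h3 : rr m * rr m = 3 * (rr m + s) := by rw [← hs]; exact h2
  have h4 : rr m + s = a + 1 := by rw [← hs]; exact ha
  rw [hs]
  have h5 : a = rr m + s - 1 := by omega
  nlinarith [h3, h4]

theorem tor_coprime (m : ℕ) : Nat.Coprime (qq m + rr m + 1) (qq m - rr m + 1) := by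
  have h1 := rr_le_qq m
  have hq : 3 ∣ qq m := dvd_pow_self 3 (by omega)
  have hr : 3 ∣ rr m := dvd_pow_self 3 (by omega)
  have hqo : qq m % 2 = 1 := Nat.odd_iff.mp (Odd.pow (by decide))
  have hro : rr m % 2 = 1 := Nat.odd_iff.mp (Odd.pow (by decide))
  by_contra hnc
  obtain ⟨p, hp, hp1, hp2⟩ := Nat.Prime.not_coprime_iff_dvd.mp hnc
  have h2 : p ∣ (qq m + rr m + 1) - (qq m - rr m + 1) := Nat.dvd_sub hp1 hp2
  have e : (qq m + rr m + 1) - (qq m - rr m + 1) = 2 * rr m := by omega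
  rw [e] at h2
  rcases (Nat.Prime.dvd_mul hp).mp h2 with h | h
  · have hp2' := (Nat.prime_dvd_prime_iff_eq hp Nat.prime_two).mp h
    subst hp2'
    omega
  · have hp3 := (Nat.prime_dvd_prime_iff_eq hp Nat.prime_three).mp (hp.dvd_of_dvd_pow h)
    subst hp3
    obtain ⟨k1, hk1⟩ := hq
    obtain ⟨k2, hk2⟩ := hr
    omega

/-! ### the piece -/

theorem main : ConjT.{u} := by
  intro G _ _ m hm htor d hd A B hA hB hcA hcB
  by_cases hd1 : d = 1
  · subst hd1
    have hAb : A = ⊥ := Subgroup.eq_bot_of_card_eq A hcA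
    have hBb : B = ⊥ := Subgroup.eq_bot_of_card_eq B hcB
    exact ⟨1, by rw [hAb, hBb, Subgroup.map_bot]⟩
  · obtain ⟨a, rfl⟩ := cyc_gen A hA
    obtain ⟨b, rfl⟩ := cyc_gen B hB
    have hoa : orderOf a = d := by rw [← hcA, Nat.card_zpowers]
    have hob : orderOf b = d := by rw [← hcB, Nat.card_zpowers]
    have hdQ : d ∣ qq m ^ 2 - qq m + 1 := by
      rw [← tor_mul]
      rcases hd with h | h
      · exact Dvd.dvd.mul_left h _
      · exact Dvd.dvd.mul_right h _
    have hcop : Nat.Coprime d (qq m * (qq m ^ 2 - 1)) :=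
      Nat.Coprime.coprime_dvd_left hdQ (coprime_Q m)
    have ha3 : P3 G m a := by
      refine ⟨?_, by rw [hoa]; exact hcop⟩
      rintro rfl
      rw [orderOf_one] at hoa
      exact hd1 hoa.symm
    have hb3 : P3 G m b := by
      refine ⟨?_, by rw [hob]; exact hcop⟩
      rintro rfl
      rw [orderOf_one] at hob
      exact hd1 hob.symm
    obtain ⟨C₁, C₂, hc1, hc2, hn1, hn2, hcov, -, -, -, -⟩ := htor
    have no1 : ∀ {z : G} {w : G}, orderOf z = d → w * z * w⁻¹ ∈ C₁ → d ∣ qq m - rr m + 1 →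
        False := by
      intro z w hz hw hdd
      have h1 : d ∣ qq m + rr m + 1 := by
        rw [← hn1, ← hz, ← ord_conj w z]
        exact Subgroup.orderOf_dvd_natCard _ hw
      have h2 := Nat.dvd_gcd h1 hdd
      rw [tor_coprime m] at h2
      exact hd1 (Nat.dvd_one.mp h2)
    have no2 : ∀ {z : G} {w : G}, orderOf z = d → w * z * w⁻¹ ∈ C₂ → d ∣ qq m + rr m + 1 →
        False := by
      intro z w hz hw hdd
      have h1 : d ∣ qq m - rr m + 1 := by
        rw [← hn2, ← hz, ← ord_conj w z]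
        exact Subgroup.orderOf_dvd_natCard _ hw
      have h2 := Nat.dvd_gcd hdd h1
      rw [tor_coprime m] at h2
      exact hd1 (Nat.dvd_one.mp h2)
    obtain ⟨x, hx⟩ := hcov a ha3
    obtain ⟨y, hy⟩ := hcov b hb3
    rcases hd with hdd | hdd
    · rcases hx with hx | hx
      · exact (no1 hoa hx hdd).elim
      · rcases hy with hy | hy
        · exact (no1 hob hy hdd).elim
        · exact conj_of_common hc2 hx hy (hob.trans hoa.symm)
    · rcases hx with hx | hx
      · rcases hy with hy | hy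
        · exact conj_of_common hc1 hx hy (hob.trans hoa.symm)
        · exact (no2 hob hy hdd).elim
      · exact (no2 hoa hx hdd).elim

end Cfsg.Agent.Lib.Helper7.RHCONJT
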