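import Mathlib
import Cfsg.Agent.Lib.Helper7.ReeSolvStmt
import Cfsg.Agent.Lib.Helper7.RHCONJT

set_option autoImplicit false

/-! Piece NCONJ of S2361 (helper7). -/

namespace Cfsg.Agent.Lib.Helper7.RSNCONJ

open Cfsg.Agent.Lib.Helper42.ReeSpStmt Cfsg.Agent.Lib.Helper18.ReeHallStmt
open Cfsg.Agent.Lib.Helper7.ReeSolvStmt
open Cfsg.Agent.Lib.Helper7.RHCONJT

universe u

theorem main : NConj.{u} := by
  intro G _ _ a b d hN hda hd1 hconj M hMcyc hMd
  obtain ⟨A₀, hA0cyc, hA0a, hA0b, hA0n⟩ := hN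
  obtain ⟨g0, hg0⟩ := cyc_gen A₀ hA0cyc
  have ho : orderOf g0 = a := by
    rw [← hA0a, hg0, Nat.card_zpowers]
  have hpos : orderOf g0 ≠ 0 := (orderOf_pos g0).ne'
  have hM1card : Nat.card ↥(Subgroup.zpowers (g0 ^ (orderOf g0 / d))) = d := by
    rw [Nat.card_zpowers]
    exact orderOf_pow_orderOf_div hpos (ho ▸ hda)
  have hM1le : Subgroup.zpowers (g0 ^ (orderOf g0 / d)) ≤ A₀ := by
    rw [hg0]
    exact Subgroup.zpowers_le.mpr (Subgroup.pow_mem _ (Subgroup.mem_zpowers g0) _)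
  have hM1ne : Subgroup.zpowers (g0 ^ (orderOf g0 / d)) ≠ ⊥ := by
    intro h
    rw [h, Subgroup.card_bot] at hM1card
    omega
  obtain ⟨g, hg⟩ := hconj (Subgroup.zpowers (g0 ^ (orderOf g0 / d))) M inferInstance hMcyc
    hM1card hMd
  have hnorm := hA0n _ hM1le hM1ne
  refine ⟨A₀.map (MulAut.conj g).toMonoidHom, ?_, ?_, ?_⟩
  · rw [hg0, MonoidHom.map_zpowers]
    infer_instance
  · rw [Subgroup.card_map_of_injective (MulAut.conj g).injective, hA0a]
  · rw [hg, ← Subgroup.map_equiv_normalizer_eq, ← Subgroup.map_equiv_normalizer_eq, hnorm]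

end Cfsg.Agent.Lib.Helper7.RSNCONJ
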