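import Mathlib
import Cfsg.Agent.Lib.Helper7.ReeSolvStmt

set_option autoImplicit false

/-! Piece OMEGA of S2361 (helper7): the number of Sylow 2-subgroups containing a subgroup `F`
of order 4 is prime to 3. -/

namespace Cfsg.Agent.Lib.Helper7.RSOMEGA

open Cfsg.Agent.Lib.Helper42.ReeSpStmt Cfsg.Agent.Lib.Helper18.ReeHallStmt
open Cfsg.Agent.Lib.Helper7.ReeSolvStmt
open scoped Pointwise

universe u

/-- Sylow 2-subgroups are abelian when all 2-elements are involutions -/
theorem sylow_comm {G : Type u} [Group G] (hE : Exp2C G) (P : Sylow 2 G) {x y : G}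
    (hx : x ∈ (P : Subgroup G)) (hy : y ∈ (P : Subgroup G)) : x * y = y * x := by
  have h2 : ∀ z ∈ (P : Subgroup G), z * z = 1 := by
    intro z hz
    obtain ⟨k, hk⟩ := P.isPGroup' ⟨z, hz⟩
    rw [← sq]
    refine hE z ⟨k, ?_⟩
    have := congrArg Subtype.val hk
    simpa using this
  have hx2 := h2 x hx
  have hy2 := h2 y hy
  have hxy2 := h2 (x * y) (mul_mem hx hy)
  have e1 : x * y = (x * y)⁻¹ := eq_inv_of_mul_eq_one_left hxy2
  have ex : x⁻¹ = x := inv_eq_of_mul_eq_one_right hx2
  have ey : y⁻¹ = y := inv_eq_of_mul_eq_one_right hy2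
  rw [e1, mul_inv_rev, ex, ey]

theorem main : Omega.{u} := by
  intro G _ _ hE hC F hF
  classical
  have hF2 : IsPGroup 2 ↥F := IsPGroup.of_card (n := 2) (by rw [hF]; norm_num)
  obtain ⟨P₀, hP₀⟩ := hF2.exists_le_sylow
  -- Sylow 2-subgroups containing `F` lie in `C(F)`
  have hPC : ∀ P : Sylow 2 G, F ≤ (P : Subgroup G) →
      (P : Subgroup G) ≤ Subgroup.centralizer (F : Set G) := by
    intro P hFP x hx
    rw [Subgroup.mem_centralizer_iff]
    intro f hf
    exact sylow_comm hE P (hFP hf) hx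
  -- the orbit of `P₀` under `C(F)` is the set of Sylow 2-subgroups containing `F`
  have horb : ∀ P : Sylow 2 G,
      P ∈ MulAction.orbit ↥(Subgroup.centralizer (F : Set G)) P₀ ↔ F ≤ (P : Subgroup G) := by
    intro P
    constructor
    · rintro ⟨c, rfl⟩
      intro f hf
      have hcf : f * (c : G) = (c : G) * f := (Subgroup.mem_centralizer_iff.mp c.2 f hf)
      have h1 : MulAut.conj (c : G) • f ∈ MulAut.conj (c : G) • (P₀ : Subgroup G) :=
        Subgroup.smul_mem_pointwise_smul_iff.mpr (hP₀ hf)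
      have h2 : MulAut.conj (c : G) • f = f := by
        show (c : G) * f * (c : G)⁻¹ = f
        rw [← hcf]; group
      rw [h2] at h1
      exact h1
    · intro hFP
      obtain ⟨c, hc⟩ := MulAction.exists_smul_eq ↥(Subgroup.centralizer (F : Set G))
        (P₀.subtype (hPC P₀ hP₀)) (P.subtype (hPC P hFP))
      rw [Sylow.smul_subtype] at hc
      exact ⟨c, Sylow.subtype_injective hc⟩
  have hcard : Nat.card {P : Sylow 2 G // F ≤ (P : Subgroup G)} =
      Nat.card ↥(MulAction.orbit ↥(Subgroup.centralizer (F : Set G)) P₀) :=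
    Nat.card_congr (Equiv.subtypeEquivRight (fun P => (horb P).symm))
  have hmul : Nat.card ↥(MulAction.orbit ↥(Subgroup.centralizer (F : Set G)) P₀) *
      Nat.card ↥(MulAction.stabilizer ↥(Subgroup.centralizer (F : Set G)) P₀) =
      Nat.card ↥(Subgroup.centralizer (F : Set G)) := by
    rw [← Nat.card_prod]
    exact Nat.card_congr
      (MulAction.orbitProdStabilizerEquivGroup ↥(Subgroup.centralizer (F : Set G)) P₀)
  intro h3
  rw [hcard] at h3
  have h3C : 3 ∣ Nat.card ↥(Subgroup.centralizer (F : Set G)) := by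
    rw [← hmul]; exact Dvd.dvd.mul_right h3 _
  have : Fact (Nat.Prime 3) := ⟨Nat.prime_three⟩
  obtain ⟨y, hy⟩ := exists_prime_orderOf_dvd_card' (G := ↥(Subgroup.centralizer (F : Set G))) 3 h3C
  have hy3 : ((y : G)) ^ 3 = 1 := by
    have := pow_orderOf_eq_one y
    rw [hy] at this
    have h' := congrArg Subtype.val this
    simpa using h'
  have hy1 := hC F hF (y : G) y.2 hy3
  have : y = 1 := Subtype.ext hy1
  rw [this, orderOf_one] at hy
  norm_num at hy

end Cfsg.Agent.Lib.Helper7.RSOMEGA
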