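import Mathlib
import Cfsg.Agent.Lib.Helper7.ReeSolvStmt

/-! Assemblies for S2361 (helper7): `OddC`, `TwoC`, `SolvC` from the pieces. -/

set_option autoImplicit false

namespace Cfsg.Agent.Lib.Helper7.ReeSolvAsm

open Cfsg.Agent.Lib.Helper42.ReeSpStmt Cfsg.Agent.Lib.Helper18.ReeHallStmt
open Cfsg.Agent.Lib.Helper7.ReeSolvStmt

universe u v

/-- the odd primes `p > 3` -/
theorem odd_of (pArith : Arith) (pNConj : NConj.{u}) {G : Type u} [Group G] [Finite G]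
    {U H A : Subgroup G} {K : Type v} [Field K] [Fintype K] {m : ℕ} (hax : Ax G U H A K m)
    (hNH : NormP G ((qq m - 1) / 2) (2 * (qq m - 1)))
    (hNA : NormP G ((qq m + 1) / 4) (6 * (qq m + 1)))
    (hNT1 : NormP G (qq m - rr m + 1) (6 * (qq m - rr m + 1)))
    (hNT2 : NormP G (qq m + rr m + 1) (6 * (qq m + rr m + 1)))
    (hCH : ∀ d : ℕ, d ∣ (qq m - 1) / 2 → ConjP G d)
    (hCA : ∀ d : ℕ, d ∣ (qq m + 1) / 4 → ConjP G d)
    (hCT : ∀ d : ℕ, (d ∣ qq m - rr m + 1 ∨ d ∣ qq m + rr m + 1) → ConjP G d) : OddC G m := by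
  intro p hp hp3 M hM hMp
  have : Fact p.Prime := ⟨hp⟩
  obtain ⟨P, hP⟩ := hMp.exists_le_sylow
  have : IsCyclic ↥(P : Subgroup G) := hax.cycSyl p hp3 P
  have hMcyc : IsCyclic ↥M := Subgroup.isCyclic_of_le hP
  obtain ⟨k, hk⟩ := IsPGroup.iff_card.mp hMp
  have h1 : 1 < Nat.card ↥M := (Subgroup.one_lt_card_iff_ne_bot M).mpr hM
  have hdvd : p ^ k ∣ qq m ^ 3 * (qq m - 1) * (qq m ^ 3 + 1) := by
    rw [← hax.card, ← hk]
    exact Subgroup.card_subgroup_dvd_card M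
  rcases pArith m p k hp hp3 hdvd with h | h | h | h
  · obtain ⟨A', hA1, hA2, hA3⟩ := pNConj G _ _ (Nat.card ↥M) hNH (hk ▸ h) h1
      (hCH _ (hk ▸ h)) M hMcyc rfl
    exact ⟨A', hA1, Or.inl hA2, hA3⟩
  · obtain ⟨A', hA1, hA2, hA3⟩ := pNConj G _ _ (Nat.card ↥M) hNA (hk ▸ h) h1
      (hCA _ (hk ▸ h)) M hMcyc rfl
    exact ⟨A', hA1, Or.inr (Or.inl hA2), hA3⟩
  · obtain ⟨A', hA1, hA2, hA3⟩ := pNConj G _ _ (Nat.card ↥M) hNT1 (hk ▸ h) h1
      (hCT _ (Or.inl (hk ▸ h))) M hMcyc rfl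
    exact ⟨A', hA1, Or.inr (Or.inr (Or.inl hA2)), hA3⟩
  · obtain ⟨A', hA1, hA2, hA3⟩ := pNConj G _ _ (Nat.card ↥M) hNT2 (hk ▸ h) h1
      (hCT _ (Or.inr (hk ▸ h))) M hMcyc rfl
    exact ⟨A', hA1, Or.inr (Or.inr (Or.inr hA2)), hA3⟩

/-- the prime 2 -/
theorem two_of (pFitG : FitG.{u}) (pSmall : TwoSmall.{u}) (pOmega : Omega.{u})
    (pFour : TwoFour.{u}) {G : Type u} [Group G] [Finite G] (hE : Exp2C G) (hS : Syl2C G)
    (hC : C3FC G) : TwoC G := by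
  intro L hL hodd
  obtain ⟨F, hFL, hLF, hF2, hcent⟩ := pFitG G L hL hodd
  obtain ⟨P, hP⟩ := hF2.exists_le_sylow
  have hP8 := hS P
  have hdvd : Nat.card ↥F ∣ 8 := by
    rw [← hP8]; exact Subgroup.card_dvd_of_le hP
  have hle : Nat.card ↥F ≤ 8 := Nat.le_of_dvd (by norm_num) hdvd
  have hpos : 0 < Nat.card ↥F := Nat.card_pos
  have hcases : Nat.card ↥F ≤ 2 ∨ Nat.card ↥F = 4 ∨ Nat.card ↥F = 8 := by
    generalize Nat.card ↥F = n at hdvd hle hpos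
    interval_cases n <;> simp_all
  rcases hcases with h | h | h
  · have hLeq := pSmall G L F hFL hLF h hcent
    refine ⟨P, ?_⟩
    rw [hLeq]
    exact hP.trans Subgroup.le_normalizer
  · exact pFour G hE L F hFL hLF h hcent (pOmega G hE hC F h)
  · have hFP : F = (P : Subgroup G) :=
      Subgroup.eq_of_le_of_card_ge hP (by rw [hP8, h])
    refine ⟨P, ?_⟩
    rw [← hFP]
    exact hLF

/-- the conclusion of S2361 from the three cases -/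
theorem solv_of {G : Type u} [Group G] [Finite G] {m : ℕ} (hOdd : OddC G m)
    (h3 : Three3C G) (h2 : TwoC G) : SolvC G m := by
  intro L hL
  by_cases h : ∃ p : ℕ, p.Prime ∧ p ≠ 2 ∧ ∃ M : Subgroup G, M ≤ L ∧
      L ≤ Subgroup.normalizer (M : Set G) ∧ IsPGroup p ↥M ∧ M ≠ ⊥
  · obtain ⟨p, hp, hp2, M, hML, hLM, hMp, hM⟩ := h
    by_cases hp3 : p = 3
    · subst hp3
      obtain ⟨P, hP⟩ := h3 M hM hMp
      exact ⟨P, hLM.trans hP, Or.inr (Or.inl ⟨P, rfl⟩)⟩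
    · have hp3' : 3 < p := by
        have := hp.two_le
        omega
      obtain ⟨A, hA1, hA2, hA3⟩ := hOdd p hp hp3' M hM hMp
      exact ⟨A, hLM.trans hA3, Or.inr (Or.inr ⟨hA1, hA2⟩)⟩
  · have hodd : ∀ p : ℕ, p.Prime → p ≠ 2 → ∀ M : Subgroup G, M ≤ L →
        L ≤ Subgroup.normalizer (M : Set G) → IsPGroup p ↥M → M = ⊥ := by
      intro p hp hp2 M hML hLM hMp
      by_contra hM
      exact h ⟨p, hp, hp2, M, hML, hLM, hMp, hM⟩
    obtain ⟨P, hP⟩ := h2 L hL hodd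
    exact ⟨P, hP, Or.inl ⟨P, rfl⟩⟩

/-- S2361 for an abstract group satisfying `Ax`, from all the pieces -/
theorem solv_of_ax (pArith : Arith) (pNConj : NConj.{u}) (pThree3 : Three3.{u, v})
    (pExp2 : Exp2.{u}) (pSyl2 : Syl2.{u, v}) (pC3F : C3F.{u, v}) (pFitG : FitG.{u})
    (pSmall : TwoSmall.{u}) (pOmega : Omega.{u}) (pFour : TwoFour.{u})
    {G : Type u} [Group G] [Finite G]
    {U H A : Subgroup G} {K : Type v} [Field K] [Fintype K] {m : ℕ} (hax : Ax G U H A K m)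
    (hSyl : SylNC G U H m) (hEven : EvenC G m)
    (hNH : NormP G ((qq m - 1) / 2) (2 * (qq m - 1)))
    (hNA : NormP G ((qq m + 1) / 4) (6 * (qq m + 1)))
    (hNT1 : NormP G (qq m - rr m + 1) (6 * (qq m - rr m + 1)))
    (hNT2 : NormP G (qq m + rr m + 1) (6 * (qq m + rr m + 1)))
    (hCH : ∀ d : ℕ, d ∣ (qq m - 1) / 2 → ConjP G d)
    (hCA : ∀ d : ℕ, d ∣ (qq m + 1) / 4 → ConjP G d)
    (hCT : ∀ d : ℕ, (d ∣ qq m - rr m + 1 ∨ d ∣ qq m + rr m + 1) → ConjP G d) : SolvC G m :=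
  solv_of (odd_of pArith pNConj hax hNH hNA hNT1 hNT2 hCH hCA hCT)
    (pThree3 G U H A K m hax)
    (two_of pFitG pSmall pOmega pFour (pExp2 G m hEven) (pSyl2 G U H A K m hax)
      (pC3F G U H A K m hax hSyl))

end Cfsg.Agent.Lib.Helper7.ReeSolvAsm
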