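import Mathlib
import Cfsg.Agent.Lib.Helper18.ReeHallAsm
import Cfsg.Agent.Lib.Helper23.RHNRMH
import Cfsg.Agent.Lib.Helper23.RHNRMA
import Cfsg.Agent.Lib.Helper82.RHNRMT
import Cfsg.Agent.Lib.Helper97.RHCONJH
import Cfsg.Agent.Lib.Helper97.RHCONJA
import Cfsg.Agent.Lib.Helper7.RHCONJT
import Cfsg.Agent.Lib.Helper97.ReeSpEVEN
import Cfsg.Agent.Lib.Helper7.ReeSolvAsm
import Cfsg.Agent.Lib.Helper52.RSARITH
import Cfsg.Agent.Lib.Helper7.RSNCONJ
import Cfsg.Agent.Lib.Helper94.RSTHREE3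
import Cfsg.Agent.Lib.Helper52.RSEXP2
import Cfsg.Agent.Lib.Helper52.RSSYL2
import Cfsg.Agent.Lib.Helper34.RSC3F
import Cfsg.Agent.Lib.Helper29.RSFIT2
import Cfsg.Agent.Lib.Helper29.RSFITG
import Cfsg.Agent.Lib.Helper1.RSTWOSMALL
import Cfsg.Agent.Lib.Helper7.RSOMEGA
import Cfsg.Agent.Lib.Helper1.RSTWOFOUR

set_option autoImplicit false

/-! # S2361, abstractly: the solvable subgroups of a group with the small Ree facts

All pieces of call #4509 put together: from `ReeHallAsm.Facts G U H A K m` (helper18) we get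
`ReeSolvStmt.SolvC G m`, with no reference to the matrix group. -/

namespace Cfsg.Agent.Lib.Helper7.ReeSolvFin

open Cfsg.Agent.Lib.Helper42.ReeSpStmt Cfsg.Agent.Lib.Helper18.ReeHallStmt
  Cfsg.Agent.Lib.Helper18.ReeHallAsm Cfsg.Agent.Lib.Helper7.ReeSolvStmt

universe u v

/-- a group with the small Ree facts is finite -/
theorem finite_of_facts {G : Type u} [Group G] {U H A : Subgroup G} {K : Type v} [Field K]
    [Fintype K] {m : ℕ} (hf : Facts G U H A K m) : Finite G :=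
  Nat.finite_of_card_ne_zero (by
    rw [hf.ax.card]
    have h3 := three_le_qq m
    have h1 : 0 < qq m - 1 := by omega
    positivity)

/-- S2361 for every group with the small Ree facts -/
theorem solv_of_facts {G : Type u} [Group G] {U H A : Subgroup G} {K : Type v} [Field K]
    [Fintype K] {m : ℕ} (hf : Facts G U H A K m) : SolvC G m := by
  haveI : Finite G := finite_of_facts hf
  obtain ⟨h1, h2, h3, h4⟩ := norm_of
    Cfsg.Agent.Lib.Helper23.RHNRMH.main Cfsg.Agent.Lib.Helper23.RHNRMA.main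
    Cfsg.Agent.Lib.Helper82.RHNRMT.main hf
  have hconj := conj_of Cfsg.Agent.Lib.Helper97.RHCONJH.main
    Cfsg.Agent.Lib.Helper97.RHCONJA.main Cfsg.Agent.Lib.Helper7.RHCONJT.main hf
  have hEven := Cfsg.Agent.Lib.Helper97.ReeSpEVEN.main _ _ _ _ _ _ hf.ax
  exact Cfsg.Agent.Lib.Helper7.ReeSolvAsm.solv_of_ax
    Cfsg.Agent.Lib.Helper52.RSARITH.main Cfsg.Agent.Lib.Helper7.RSNCONJ.main
    Cfsg.Agent.Lib.Helper94.RSTHREE3.main Cfsg.Agent.Lib.Helper52.RSEXP2.main
    Cfsg.Agent.Lib.Helper52.RSSYL2.main Cfsg.Agent.Lib.Helper34.RSC3F.main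
    (Cfsg.Agent.Lib.Helper29.RSFITG.main Cfsg.Agent.Lib.Helper29.RSFIT2.main)
    Cfsg.Agent.Lib.Helper1.RSTWOSMALL.main Cfsg.Agent.Lib.Helper7.RSOMEGA.main
    Cfsg.Agent.Lib.Helper1.RSTWOFOUR.main hf.ax hf.syl hEven h1 h2 h3 h4
    (fun d hd => hconj d (Or.inl hd)) (fun d hd => hconj d (Or.inr (Or.inl hd)))
    (fun d hd => hconj d (hd.elim (fun h => Or.inr (Or.inr (Or.inl h)))
      (fun h => Or.inr (Or.inr (Or.inr h)))))

/-- S2361 in the shape of the frozen statement, for every group with the small Ree facts -/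
theorem solv_of_exists_facts {G : Type u} [Group G] {U H : Subgroup G} {K : Type v} [Field K]
    [Fintype K] {m : ℕ} (hf : ∃ A : Subgroup G, Facts G U H A K m) (S : Subgroup G)
    (hS : Group.IsSolvable S) :
    ∃ A : Subgroup G, S ≤ Subgroup.normalizer (A : Set G) ∧
      ((∃ P : Sylow 2 G, A = P) ∨ (∃ P : Sylow 3 G, A = P) ∨
       (IsCyclic A ∧ (Nat.card A = (3 ^ (2 * m + 1) - 1) / 2 ∨
          Nat.card A = (3 ^ (2 * m + 1) + 1) / 4 ∨
          Nat.card A = 3 ^ (2 * m + 1) - 3 ^ (m + 1) + 1 ∨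
          Nat.card A = 3 ^ (2 * m + 1) + 3 ^ (m + 1) + 1))) := by
  obtain ⟨A', hf'⟩ := hf
  exact solv_of_facts hf' S hS

end Cfsg.Agent.Lib.Helper7.ReeSolvFin
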